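import Mathlib

set_option autoImplicit false

namespace Cfsg.Agent.Lib.Helper42

/-! ### Orbit bound for abelian permutation groups -/

section orbit
variable {A : Type*} [Group A] {X : Type*} [Fintype X] [MulAction A X]

open MulAction

lemma out_smul_mem_orbit (a : A) (ω : orbitRel.Quotient A X) : a • (Quotient.out ω : X) ∈ ω.orbit := by
  rw [orbitRel.Quotient.mem_orbit]
  have h1 : (Quotient.mk'' (a • (Quotient.out ω : X)) : orbitRel.Quotient A X) = Quotient.mk'' (Quotient.out ω : X) := by
    apply Quotient.sound'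
    exact MulAction.mem_orbit _ a
  rw [h1]
  exact Quotient.out_eq' ω

lemma exists_smul_out (x : X) : ∃ c : A, x = c • (Quotient.out (Quotient.mk'' x : orbitRel.Quotient A X) : X) := by
  have h : (Quotient.mk'' (Quotient.out (Quotient.mk'' x : orbitRel.Quotient A X) : X) : orbitRel.Quotient A X)
      = Quotient.mk'' x := Quotient.out_eq' _
  have h2 := Quotient.exact' h.symm
  obtain ⟨c, hc⟩ := h2
  exact ⟨c, hc.symm⟩

/-- an abelian group acting faithfully has order at most the product of the orbit sizes -/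
lemma card_le_prod_orbits [FaithfulSMul A X] (hcomm : ∀ a b : A, a * b = b * a) :
    Nat.card A ≤ ∏ᶠ ω : orbitRel.Quotient A X, Nat.card ω.orbit := by
  classical
  have : Fintype (orbitRel.Quotient A X) := Fintype.ofFinite _
  rw [finprod_eq_prod_of_fintype]
  let Φ : A → (∀ ω : orbitRel.Quotient A X, ω.orbit) := fun a ω => ⟨a • Quotient.out ω, out_smul_mem_orbit a ω⟩
  have hΦ : Function.Injective Φ := by
    intro a b hab
    apply FaithfulSMul.eq_of_smul_eq_smul (α := X)
    intro x
    obtain ⟨c, hc⟩ := exists_smul_out (A := A) x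
    have h1 : a • (Quotient.out (Quotient.mk'' x : orbitRel.Quotient A X) : X) =
        b • (Quotient.out (Quotient.mk'' x : orbitRel.Quotient A X) : X) :=
      congrArg Subtype.val (congrFun hab (Quotient.mk'' x))
    rw [hc, smul_smul, smul_smul, hcomm a c, hcomm b c, mul_smul, mul_smul, h1]
  have := Nat.card_le_card_of_injective Φ hΦ
  rwa [Nat.card_pi] at this

lemma sum_card_orbits : ∑ᶠ ω : orbitRel.Quotient A X, Nat.card ω.orbit = Fintype.card X := by
  classical
  have : Fintype (orbitRel.Quotient A X) := Fintype.ofFinite _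
  rw [finsum_eq_sum_of_fintype]
  have e := MulAction.selfEquivSigmaOrbits' A X
  rw [Fintype.card_congr e, Fintype.card_sigma]
  simp [Nat.card_eq_fintype_card]

end orbit

/-! ### The maximal product of a partition -/

/-- the largest product of a partition of `n` -/
def maxProd : ℕ → ℕ
  | 0 => 1
  | 1 => 1
  | 2 => 2
  | 3 => 3
  | 4 => 4
  | (n+5) => 3 * maxProd (n+2)

lemma maxProd_add_five (n : ℕ) : maxProd (n+5) = 3 * maxProd (n+2) := by
  rw [maxProd]

/-- induction principle with step three -/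
lemma step_three_induction {Q : ℕ → Prop} (h0 : Q 0) (h1 : Q 1) (h2 : Q 2) (h3 : Q 3) (h4 : Q 4)
    (hs : ∀ n, Q (n+2) → Q (n+5)) : ∀ n, Q n := by
  intro n
  induction n using Nat.strong_induction_on with
  | _ n ih =>
    match n with
    | 0 => exact h0
    | 1 => exact h1
    | 2 => exact h2
    | 3 => exact h3
    | 4 => exact h4
    | (m+5) => exact hs m (ih (m+2) (by omega))

lemma le_maxProd : ∀ a, a ≤ maxProd a := by
  apply step_three_induction <;> try decide
  intro n ih
  rw [maxProd_add_five]; omega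

lemma maxProd_mono_succ : ∀ b, maxProd b ≤ maxProd (b+1) := by
  apply step_three_induction <;> try decide
  intro n ih
  rw [show n + 5 + 1 = (n + 1) + 5 by ring, maxProd_add_five, maxProd_add_five]
  have : n + 1 + 2 = n + 2 + 1 := by ring
  rw [this]; omega

lemma two_mul_maxProd : ∀ b, 2 * maxProd b ≤ maxProd (b+2) := by
  apply step_three_induction <;> try decide
  intro n ih
  rw [show n + 5 + 2 = (n + 2) + 5 by ring, maxProd_add_five, maxProd_add_five]
  omega

lemma three_mul_maxProd : ∀ b, 3 * maxProd b ≤ maxProd (b+3) := by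
  intro b
  match b with
  | 0 => decide
  | 1 => decide
  | (n+2) => rw [show n + 2 + 3 = n + 5 by ring, maxProd_add_five]

lemma four_mul_maxProd : ∀ b, 4 * maxProd b ≤ maxProd (b+4) := by
  apply step_three_induction <;> try decide
  intro n ih
  rw [show n + 5 + 4 = (n + 4) + 5 by ring, maxProd_add_five, maxProd_add_five]
  have : n + 4 + 2 = n + 2 + 4 := by ring
  rw [this]; omega

lemma maxProd_mul_le : ∀ a b, maxProd a * maxProd b ≤ maxProd (a + b) := by
  apply step_three_induction
  · intro b; simp [maxProd]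
  · intro b; rw [add_comm]; simpa [maxProd] using maxProd_mono_succ b
  · intro b; rw [add_comm]; simpa [maxProd] using two_mul_maxProd b
  · intro b; rw [add_comm]; simpa [maxProd] using three_mul_maxProd b
  · intro b; rw [add_comm]; simpa [maxProd] using four_mul_maxProd b
  · intro n ih b
    rw [maxProd_add_five, mul_assoc]
    calc 3 * (maxProd (n+2) * maxProd b) ≤ 3 * maxProd (n + 2 + b) := Nat.mul_le_mul_left 3 (ih b)
      _ ≤ maxProd (n + 2 + b + 3) := three_mul_maxProd _
      _ = maxProd (n + 5 + b) := by congr 1; ring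

lemma prod_le_maxProd {ι : Type*} (s : Finset ι) (f : ι → ℕ) : ∏ i ∈ s, f i ≤ maxProd (∑ i ∈ s, f i) := by
  classical
  induction s using Finset.induction_on with
  | empty => simp [maxProd]
  | insert a s ha ih =>
    rw [Finset.prod_insert ha, Finset.sum_insert ha]
    calc f a * ∏ i ∈ s, f i ≤ maxProd (f a) * maxProd (∑ i ∈ s, f i) := Nat.mul_le_mul (le_maxProd _) ih
      _ ≤ _ := maxProd_mul_le _ _

lemma maxProd_three_mul (k : ℕ) : maxProd (3 * k) = 3 ^ k := by
  induction k with
  | zero => rfl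
  | succ k ih =>
    match k with
    | 0 => rfl
    | (j+1) =>
      rw [show 3 * (j + 1 + 1) = (3 * j + 1) + 5 by ring, maxProd_add_five,
        show 3 * j + 1 + 2 = 3 * (j + 1) by ring, ih, pow_succ (n := j + 1)]; ring

lemma maxProd_three_mul_add_two (k : ℕ) : maxProd (3 * k + 2) = 2 * 3 ^ k := by
  induction k with
  | zero => rfl
  | succ k ih =>
    rw [show 3 * (k + 1) + 2 = (3 * k) + 5 by ring, maxProd_add_five, ih, pow_succ]; ring

lemma maxProd_three_mul_add_one (k : ℕ) (hk : 1 ≤ k) : maxProd (3 * k + 1) = 4 * 3 ^ (k - 1) := by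
  induction k with
  | zero => omega
  | succ k ih =>
    match k with
    | 0 => rfl
    | (j+1) =>
      rw [show 3 * (j + 1 + 1) + 1 = (3 * j + 2) + 5 by ring, maxProd_add_five,
        show 3 * j + 2 + 2 = 3 * (j + 1) + 1 by ring, ih (by omega)]
      simp only [Nat.add_sub_cancel]
      rw [pow_succ]; ring

/-- upper bound for abelian subgroups of the symmetric group -/
lemma card_abelian_le (n : ℕ) (A : Subgroup (Equiv.Perm (Fin n))) (hA : IsMulCommutative A) :
    Nat.card A ≤ maxProd n := by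
  classical
  have h1 := card_le_prod_orbits (A := A) (X := Fin n) (fun a b => hA.is_comm.comm a b)
  have h2 := sum_card_orbits (A := A) (X := Fin n)
  have : Fintype (MulAction.orbitRel.Quotient A (Fin n)) := Fintype.ofFinite _
  rw [finprod_eq_prod_of_fintype] at h1
  rw [finsum_eq_sum_of_fintype, Fintype.card_fin] at h2
  calc Nat.card A ≤ _ := h1
    _ ≤ maxProd _ := prod_le_maxProd _ _
    _ = maxProd n := by rw [h2]

/-! ### Existence -/

/-- there is an abelian group of even (if `ev`) permutations of degree `n` and order `c` -/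
def ExAb (ev : Prop) (n c : ℕ) : Prop :=
  ∃ A : Subgroup (Equiv.Perm (Fin n)), IsMulCommutative A ∧ Nat.card A = c ∧ (ev → A ≤ alternatingGroup (Fin n))

lemma ExAb.add {ev : Prop} {m n a b : ℕ} (h1 : ExAb ev m a) (h2 : ExAb ev n b) : ExAb ev (m + n) (a * b) := by
  classical
  obtain ⟨A, hA, hAc, hAe⟩ := h1
  obtain ⟨B, hB, hBc, hBe⟩ := h2
  let φ : Equiv.Perm (Fin m) × Equiv.Perm (Fin n) →* Equiv.Perm (Fin (m + n)) :=
    (finSumFinEquiv.permCongrHom.toMonoidHom).comp (Equiv.Perm.sumCongrHom (Fin m) (Fin n))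
  have hφ : Function.Injective φ :=
    (finSumFinEquiv.permCongrHom.injective).comp Equiv.Perm.sumCongrHom_injective
  refine ⟨(A.prod B).map φ, ?_, ?_, ?_⟩
  · constructor
    constructor
    rintro ⟨_, ⟨x, hx, rfl⟩⟩ ⟨_, ⟨y, hy, rfl⟩⟩
    apply Subtype.ext
    show φ x * φ y = φ y * φ x
    rw [← map_mul, ← map_mul]
    congr 1
    have e1 : x.1 * y.1 = y.1 * x.1 := congrArg Subtype.val (hA.is_comm.comm ⟨x.1, hx.1⟩ ⟨y.1, hy.1⟩)
    have e2 : x.2 * y.2 = y.2 * x.2 := congrArg Subtype.val (hB.is_comm.comm ⟨x.2, hx.2⟩ ⟨y.2, hy.2⟩)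
    exact Prod.ext e1 e2
  · rw [Subgroup.card_map_of_injective hφ, Nat.card_congr (Subgroup.prodEquiv A B).toEquiv, Nat.card_prod, hAc, hBc]
  · intro hev
    rintro _ ⟨x, hx, rfl⟩
    rw [Equiv.Perm.mem_alternatingGroup]
    show Equiv.Perm.sign (finSumFinEquiv.permCongr (Equiv.Perm.sumCongr x.1 x.2)) = 1
    rw [Equiv.Perm.sign_permCongr, Equiv.Perm.sign_sumCongr]
    have e1 := Equiv.Perm.mem_alternatingGroup.mp (hAe hev hx.1)
    have e2 := Equiv.Perm.mem_alternatingGroup.mp (hBe hev hx.2)
    rw [e1, e2, one_mul]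

lemma ExAb.bot (ev : Prop) (n : ℕ) : ExAb ev n 1 :=
  ⟨⊥, ⟨⟨fun a b => by rw [Subsingleton.elim a b]⟩⟩, by simp, fun _ => bot_le⟩

lemma ExAb.cyclic (n : ℕ) (hn : 2 ≤ n) : ExAb False n n := by
  refine ⟨Subgroup.zpowers (finRotate n), inferInstance, ?_, fun h => h.elim⟩
  rw [Nat.card_zpowers, ← Equiv.Perm.lcm_cycleType, cycleType_finRotate_of_le hn]
  simp

lemma ExAb.maxProd : ∀ n, ExAb False n (maxProd n) := by
  apply step_three_induction
  · exact ExAb.bot _ _
  · exact ExAb.bot _ _
  · exact ExAb.cyclic 2 le_rfl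
  · exact ExAb.cyclic 3 (by norm_num)
  · exact ExAb.cyclic 4 (by norm_num)
  · intro n ih
    rw [maxProd_add_five, show n + 5 = 3 + (n + 2) by ring]
    exact (ExAb.cyclic 3 (by norm_num)).add ih

lemma isGreatest_abelian (n : ℕ) :
    IsGreatest {c : ℕ | ∃ A : Subgroup (Equiv.Perm (Fin n)), IsMulCommutative A ∧ Nat.card A = c} (maxProd n) := by
  constructor
  · obtain ⟨A, hA, hc, _⟩ := ExAb.maxProd n
    exact ⟨A, hA, hc⟩
  · rintro c ⟨A, hA, rfl⟩
    exact card_abelian_le n A hA

end Cfsg.Agent.Lib.Helper42
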