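import Mathlib
import Cfsg.Agent.Lib.Helper42.AbelianPerm

set_option autoImplicit false

namespace Cfsg.Agent.Lib.Helper42

/-! ### partitions without parts equal to two -/

/-- the largest product of a partition of `n` without parts equal to `2` -/
def mp2 : ℕ → ℕ
  | 0 => 1
  | 1 => 1
  | 2 => 1
  | 3 => 3
  | 4 => 4
  | 5 => 5
  | 6 => 9
  | 7 => 12
  | 8 => 16
  | (n+9) => 3 * mp2 (n+6)

lemma mp2_add_nine (n : ℕ) : mp2 (n+9) = 3 * mp2 (n+6) := by
  rw [mp2]

lemma step_three_induction9 {Q : ℕ → Prop} (hb : ∀ n ≤ 8, Q n)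
    (hs : ∀ n, Q (n+6) → Q (n+9)) : ∀ n, Q n := by
  intro n
  induction n using Nat.strong_induction_on with
  | _ n ih =>
    by_cases h : n ≤ 8
    · exact hb n h
    · obtain ⟨m, rfl⟩ : ∃ m, n = m + 9 := ⟨n - 9, by omega⟩
      exact hs m (ih (m+6) (by omega))

lemma le_mp2 : ∀ a, a ≠ 2 → a ≤ mp2 a := by
  apply step_three_induction9
  · intro n hn; interval_cases n <;> decide
  · intro n ih _
    rw [mp2_add_nine]
    have := ih (by omega)
    omega

lemma mp2_base (c a0 : ℕ) (h : ∀ b ≤ 8, c * mp2 b ≤ mp2 (b + a0)) : ∀ b, c * mp2 b ≤ mp2 (b + a0) := by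
  apply step_three_induction9 h
  intro n ih
  rw [show n + 9 + a0 = (n + a0) + 9 by ring, mp2_add_nine, mp2_add_nine,
    show n + a0 + 6 = n + 6 + a0 by ring]
  calc c * (3 * mp2 (n+6)) = 3 * (c * mp2 (n+6)) := by ring
    _ ≤ 3 * mp2 (n + 6 + a0) := Nat.mul_le_mul_left 3 ih

lemma three_mul_mp2 : ∀ b, 3 * mp2 b ≤ mp2 (b + 3) :=
  mp2_base 3 3 (by intro b hb; interval_cases b <;> decide)

lemma mp2_mul_le : ∀ a b, mp2 a * mp2 b ≤ mp2 (a + b) := by
  apply step_three_induction9
  · intro a ha b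
    rw [add_comm]
    revert b
    apply mp2_base
    intro b hb
    interval_cases a <;> interval_cases b <;> decide
  · intro n ih b
    rw [mp2_add_nine, mul_assoc]
    calc 3 * (mp2 (n+6) * mp2 b) ≤ 3 * mp2 (n + 6 + b) := Nat.mul_le_mul_left 3 (ih b)
      _ ≤ mp2 (n + 6 + b + 3) := three_mul_mp2 _
      _ = mp2 (n + 9 + b) := by congr 1; ring

lemma prod_le_mp2 {ι : Type*} (s : Finset ι) (f : ι → ℕ) (hf : ∀ i ∈ s, f i ≠ 2) :
    ∏ i ∈ s, f i ≤ mp2 (∑ i ∈ s, f i) := by
  classical
  induction s using Finset.induction_on with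
  | empty => simp [mp2]
  | insert a s ha ih =>
    rw [Finset.prod_insert ha, Finset.sum_insert ha]
    calc f a * ∏ i ∈ s, f i ≤ mp2 (f a) * mp2 (∑ i ∈ s, f i) :=
          Nat.mul_le_mul (le_mp2 _ (hf a (Finset.mem_insert_self _ _)))
            (ih (fun i hi => hf i (Finset.mem_insert_of_mem hi)))
      _ ≤ _ := mp2_mul_le _ _

lemma mp2_three_mul_add_two (k : ℕ) (hk : 2 ≤ k) : mp2 (3 * k + 2) = 16 * 3 ^ (k - 2) := by
  induction k with
  | zero => omega
  | succ k ih =>
    by_cases h : k = 1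
    · subst h; rfl
    · obtain ⟨j, rfl⟩ : ∃ j, k = j + 2 := ⟨k - 2, by omega⟩
      rw [show 3 * (j + 2 + 1) + 2 = (3 * j + 2) + 9 by ring, mp2_add_nine,
        show 3 * j + 2 + 6 = 3 * (j + 2) + 2 by ring, ih (by omega)]
      have e1 : j + 2 - 2 = j := by omega
      have e2 : j + 2 + 1 - 2 = j + 1 := by omega
      rw [e1, e2, pow_succ]; ring

/-! ### orbits of size two in abelian groups of even permutations -/

section even
open MulAction

variable {n : ℕ} (A : Subgroup (Equiv.Perm (Fin n))) (hA : IsMulCommutative A)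

include hA in
lemma pow_card_orbit_smul (a : A) (z : Fin n) :
    a ^ (Nat.card (orbitRel.Quotient.orbit (Quotient.mk'' z : orbitRel.Quotient A (Fin n)))) • z = z := by
  have h1 : (stabilizer A z).index = Nat.card (orbitRel.Quotient.orbit (Quotient.mk'' z : orbitRel.Quotient A (Fin n))) := by
    rw [MulAction.index_stabilizer, orbitRel.Quotient.orbit_mk, Nat.card_coe_set_eq]
  rw [← h1]
  exact (stabilizer A z).pow_index_mem a

include hA in
lemma exists_even_orbit (hAe : A ≤ alternatingGroup (Fin n)) (ω0 : orbitRel.Quotient A (Fin n))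
    (h0 : Nat.card ω0.orbit = 2) : ∃ ω1, ω1 ≠ ω0 ∧ Even (Nat.card ω1.orbit) := by
  classical
  have : Fintype (orbitRel.Quotient A (Fin n)) := Fintype.ofFinite _
  by_contra hcon
  push Not at hcon
  set M := ∏ ω ∈ Finset.univ.erase ω0, Nat.card ω.orbit with hM
  have hModd : Odd M := by
    apply Finset.prod_induction _ Odd (fun a b => Odd.mul) odd_one
    intro ω hω
    exact Nat.not_even_iff_odd.mp (hcon ω (Finset.ne_of_mem_erase hω))
  -- the two points
  obtain ⟨x, y, hxy, hset⟩ := Set.ncard_eq_two.mp ((Nat.card_coe_set_eq _).symm.trans h0)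
  have hx : x ∈ ω0.orbit := by rw [hset]; simp
  have hy : y ∈ ω0.orbit := by rw [hset]; simp
  have hxω : (Quotient.mk'' x : orbitRel.Quotient A (Fin n)) = ω0 := orbitRel.Quotient.mem_orbit.mp hx
  have hyω : (Quotient.mk'' y : orbitRel.Quotient A (Fin n)) = ω0 := orbitRel.Quotient.mem_orbit.mp hy
  obtain ⟨a, ha⟩ : ∃ a : A, a • x = y := by
    have := Quotient.exact' (hyω.trans hxω.symm)
    exact this
  have ha2 : a ^ 2 • x = x := by
    have := pow_card_orbit_smul A hA a x
    rwa [hxω, h0] at this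
  obtain ⟨j, hj⟩ := hModd
  have hbx : a ^ M • x = y := by
    have h2j : ∀ j : ℕ, (a ^ 2) ^ j • x = x := by
      intro j
      induction j with
      | zero => simp
      | succ j ih => rw [pow_succ, mul_smul, ha2, ih]
    rw [hj, pow_succ, pow_mul, mul_smul, ha, ← ha, ← mul_smul, hA.is_comm.comm, mul_smul, h2j]
  have hby : a ^ M • y = x := by
    rw [← ha, ← mul_smul, hA.is_comm.comm, mul_smul, hbx, ← ha, ← mul_smul, ← pow_two, ha2]
  have hbz : ∀ z, z ≠ x → z ≠ y → a ^ M • z = z := by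
    intro z hzx hzy
    have hzω : (Quotient.mk'' z : orbitRel.Quotient A (Fin n)) ≠ ω0 := by
      intro h
      have : z ∈ ω0.orbit := orbitRel.Quotient.mem_orbit.mpr h
      rw [hset] at this
      rcases this with h | h
      · exact hzx h
      · exact hzy h
    have hdvd : Nat.card (orbitRel.Quotient.orbit (Quotient.mk'' z : orbitRel.Quotient A (Fin n))) ∣ M :=
      Finset.dvd_prod_of_mem _ (Finset.mem_erase.mpr ⟨hzω, Finset.mem_univ _⟩)
    obtain ⟨c, hc⟩ := hdvd
    have hfix := pow_card_orbit_smul A hA a z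
    have : ∀ c : ℕ, (a ^ (Nat.card (orbitRel.Quotient.orbit (Quotient.mk'' z : orbitRel.Quotient A (Fin n))))) ^ c • z = z := by
      intro c
      induction c with
      | zero => simp
      | succ c ih => rw [pow_succ, mul_smul, hfix, ih]
    rw [hc, pow_mul]
    exact this c
  have hswap : ((a ^ M : A) : Equiv.Perm (Fin n)) = Equiv.swap x y := by
    ext z
    congr 1
    by_cases hzx : z = x
    · subst hzx
      rw [Equiv.swap_apply_left]; exact hbx
    · by_cases hzy : z = y
      · subst hzy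
        rw [Equiv.swap_apply_right]; exact hby
      · rw [Equiv.swap_apply_of_ne_of_ne hzx hzy]; exact hbz z hzx hzy
  have hsign := Equiv.Perm.mem_alternatingGroup.mp (hAe (a ^ M).2)
  rw [hswap, Equiv.Perm.sign_swap hxy] at hsign
  revert hsign; decide

include hA in
/-- the upper bound for degree `3k+2` -/
lemma card_abelian_alt_le (k : ℕ) (hk : 2 ≤ k) (hn : n = 3 * k + 2) (hAe : A ≤ alternatingGroup (Fin n)) :
    Nat.card A ≤ 16 * 3 ^ (k - 2) := by
  classical
  have h1 := card_le_prod_orbits (A := A) (X := Fin n) (fun a b => hA.is_comm.comm a b)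
  have h2 := sum_card_orbits (A := A) (X := Fin n)
  have : Fintype (orbitRel.Quotient A (Fin n)) := Fintype.ofFinite _
  rw [finprod_eq_prod_of_fintype] at h1
  rw [finsum_eq_sum_of_fintype, Fintype.card_fin] at h2
  refine h1.trans ?_
  by_cases hcase : ∃ ω0 : orbitRel.Quotient A (Fin n), Nat.card ω0.orbit = 2
  · obtain ⟨ω0, h0⟩ := hcase
    obtain ⟨ω1, hne, hev⟩ := exists_even_orbit A hA hAe ω0 h0
    set f : orbitRel.Quotient A (Fin n) → ℕ := fun ω => Nat.card ω.orbit with hf
    set s := (Finset.univ.erase ω0).erase ω1 with hs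
    have hmem1 : ω1 ∈ Finset.univ.erase ω0 := Finset.mem_erase.mpr ⟨hne, Finset.mem_univ _⟩
    have hprod : ∏ ω, f ω = f ω0 * (f ω1 * ∏ ω ∈ s, f ω) := by
      rw [← Finset.mul_prod_erase Finset.univ f (Finset.mem_univ ω0),
        ← Finset.mul_prod_erase (Finset.univ.erase ω0) f hmem1]
    have hsum : ∑ ω, f ω = f ω0 + (f ω1 + ∑ ω ∈ s, f ω) := by
      rw [← Finset.add_sum_erase Finset.univ f (Finset.mem_univ ω0),
        ← Finset.add_sum_erase (Finset.univ.erase ω0) f hmem1]
    have hf0 : f ω0 = 2 := h0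
    have hpos : 0 < f ω1 := by
      have : Nonempty ω1.orbit := by
        induction ω1 using Quotient.inductionOn' with
        | h z => exact ⟨⟨z, orbitRel.Quotient.mem_orbit.mpr rfl⟩⟩
      exact Nat.card_pos
    have hle : ∏ ω ∈ s, f ω ≤ maxProd (∑ ω ∈ s, f ω) := prod_le_maxProd s f
    have h2' : ∑ ω, f ω = n := h2
    have hsum' : 2 + (f ω1 + ∑ ω ∈ s, f ω) = 3 * k + 2 := by omega
    have hev' : Even (f ω1) := hev
    show ∏ ω, f ω ≤ _
    rw [hprod, hf0]
    generalize f ω1 = m' at *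
    generalize ∑ ω ∈ s, f ω = r at *
    generalize ∏ ω ∈ s, f ω = pr at *
    obtain ⟨j, rfl⟩ : ∃ j, k = j + 2 := ⟨k - 2, by omega⟩
    have ej : j + 2 - 2 = j := by omega
    rw [ej]
    have key : m' * maxProd r ≤ 8 * 3 ^ j := by
      obtain ⟨e, he⟩ := hev'
      by_cases h2' : m' = 2
      · have hr' : r = 3 * (j + 1) + 1 := by omega
        rw [h2', hr', maxProd_three_mul_add_one _ (by omega)]
        simp only [Nat.add_sub_cancel]
        omega
      · have h4 : 4 ≤ m' := by omega
        have hm4 : m' ≤ 4 * maxProd (m' - 4) := by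
          by_cases h44 : m' = 4
          · rw [h44]; decide
          · have := le_maxProd (m' - 4)
            omega
        calc m' * maxProd r ≤ 4 * maxProd (m' - 4) * maxProd r := Nat.mul_le_mul_right _ hm4
          _ = 4 * (maxProd (m' - 4) * maxProd r) := by ring
          _ ≤ 4 * maxProd (m' - 4 + r) := Nat.mul_le_mul_left 4 (maxProd_mul_le _ _)
          _ = 4 * maxProd (3 * j + 2) := by congr 2; omega
          _ = 8 * 3 ^ j := by rw [maxProd_three_mul_add_two]; ring
    calc 2 * (m' * pr) ≤ 2 * (m' * maxProd r) :=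
          Nat.mul_le_mul_left 2 (Nat.mul_le_mul_left m' hle)
      _ ≤ 2 * (8 * 3 ^ j) := Nat.mul_le_mul_left 2 key
      _ = 16 * 3 ^ j := by ring
  · push Not at hcase
    calc ∏ ω : orbitRel.Quotient A (Fin n), Nat.card ω.orbit
        ≤ mp2 (∑ ω : orbitRel.Quotient A (Fin n), Nat.card ω.orbit) := prod_le_mp2 _ _ (fun ω _ => hcase ω)
      _ = 16 * 3 ^ (k - 2) := by rw [h2, hn, mp2_three_mul_add_two k hk]

end even

/-! ### existence in alternating groups -/

lemma ExAb.three : ExAb True 3 3 := by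
  refine ⟨Subgroup.zpowers (finRotate 3), inferInstance, ?_, fun _ => ?_⟩
  · rw [Nat.card_zpowers, ← Equiv.Perm.lcm_cycleType, cycleType_finRotate_of_le (by norm_num)]
    simp
  · rw [Subgroup.zpowers_le, Equiv.Perm.mem_alternatingGroup, sign_finRotate]
    decide

lemma ExAb.four : ExAb True 4 4 := by
  have h4 : Nat.card (Fin 4) = 4 := by simp
  refine ⟨(alternatingGroup.kleinFour (Fin 4)).map (alternatingGroup (Fin 4)).subtype, ?_, ?_, fun _ => ?_⟩
  · constructor
    constructor
    rintro ⟨_, ⟨x, hx, rfl⟩⟩ ⟨_, ⟨y, hy, rfl⟩⟩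
    apply Subtype.ext
    show (x : Equiv.Perm (Fin 4)) * y = y * x
    have := mul_comm_of_exponent_two (alternatingGroup.exponent_kleinFour_of_card_eq_four h4) ⟨x, hx⟩ ⟨y, hy⟩
    exact congrArg (fun t : alternatingGroup.kleinFour (Fin 4) => ((t : alternatingGroup (Fin 4)) : Equiv.Perm (Fin 4))) this
  · rw [Subgroup.card_map_of_injective (Subgroup.subtype_injective _),
      alternatingGroup.kleinFour_card_of_card_eq_four h4]
  · rintro _ ⟨x, _, rfl⟩
    exact x.2

lemma ExAb.three_pow (k : ℕ) : ExAb True (3 * k) (3 ^ k) := by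
  induction k with
  | zero => exact ExAb.bot _ _
  | succ k ih =>
    rw [show 3 * (k + 1) = 3 + 3 * k by ring, pow_succ']
    exact ExAb.three.add ih

/-- transfer between subgroups of the alternating group and subgroups of the symmetric group -/
lemma exists_alt_iff (n c : ℕ) :
    (∃ A : Subgroup (alternatingGroup (Fin n)), IsMulCommutative A ∧ Nat.card A = c) ↔ ExAb True n c := by
  constructor
  · rintro ⟨A, hA, hc⟩
    refine ⟨A.map (alternatingGroup (Fin n)).subtype, ?_, ?_, fun _ => ?_⟩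
    · constructor
      constructor
      rintro ⟨_, ⟨x, hx, rfl⟩⟩ ⟨_, ⟨y, hy, rfl⟩⟩
      apply Subtype.ext
      show (x : Equiv.Perm (Fin n)) * y = y * x
      have := hA.is_comm.comm ⟨x, hx⟩ ⟨y, hy⟩
      exact congrArg (fun t : A => ((t : alternatingGroup (Fin n)) : Equiv.Perm (Fin n))) this
    · rw [Subgroup.card_map_of_injective (Subgroup.subtype_injective _), hc]
    · rintro _ ⟨x, _, rfl⟩
      exact x.2
  · rintro ⟨A, hA, hc, hAe⟩
    refine ⟨A.subgroupOf (alternatingGroup (Fin n)), ?_, ?_⟩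
    · constructor
      constructor
      rintro ⟨x, hx⟩ ⟨y, hy⟩
      apply Subtype.ext
      apply Subtype.ext
      show (x : Equiv.Perm (Fin n)) * y = y * x
      exact congrArg Subtype.val (hA.is_comm.comm ⟨x, hx⟩ ⟨y, hy⟩)
    · rw [Nat.card_congr (Subgroup.subgroupOfEquivOfLe (hAe trivial)).toEquiv, hc]

end Cfsg.Agent.Lib.Helper42
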