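import Mathlib

/-!
Arithmetic for the element orders `q ^ m ± 1` in `PSU_{2m}(q)`.
-/

set_option autoImplicit false

namespace Cfsg.Agent.Lib.Helper42.PGraphU

theorem R_mod (q m R D : ℕ) (hD : D ∣ q + 1) (hR : (R : ℤ) * ((q : ℤ) + 1) = (q : ℤ) ^ m - (-1) ^ m) :
    D ∣ R ↔ D ∣ m := by
  have hS : (R : ℤ) = ∑ i ∈ Finset.range m, (q : ℤ) ^ i * (-1) ^ (m - 1 - i) := by
    have h1 := geom_sum₂_mul (q : ℤ) (-1) m
    rw [sub_neg_eq_add] at h1
    have h2 : ((q : ℤ) + 1) ≠ 0 := by positivity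
    exact mul_right_cancel₀ h2 (hR.trans h1.symm)
  have hq : ((q : ℕ) : ZMod D) = -1 := by
    have := (ZMod.natCast_eq_zero_iff (q + 1) D).mpr hD
    push_cast at this
    exact eq_neg_of_add_eq_zero_left this
  have h3 : ((R : ℕ) : ZMod D) = (m : ZMod D) * (-1) ^ (m - 1) := by
    have := congrArg (fun z : ℤ => (z : ZMod D)) hS
    simp only [Int.cast_natCast, Int.cast_sum, Int.cast_mul, Int.cast_pow, Int.cast_neg,
      Int.cast_one] at this
    rw [this, hq]
    have h4 : ∀ i ∈ Finset.range m, (-1 : ZMod D) ^ i * (-1) ^ (m - 1 - i) = (-1) ^ (m - 1) := by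
      intro i hi
      rw [← pow_add]
      congr 1
      have := Finset.mem_range.mp hi
      omega
    rw [Finset.sum_congr rfl h4, Finset.sum_const, Finset.card_range, nsmul_eq_mul]
  rw [← ZMod.natCast_eq_zero_iff, ← ZMod.natCast_eq_zero_iff, h3]
  constructor
  · intro h
    have h5 : ((-1 : ZMod D) ^ (m - 1)) * ((-1) ^ (m - 1)) = 1 := by
      rw [← mul_pow]; simp
    calc (m : ZMod D) = (m : ZMod D) * (-1) ^ (m - 1) * (-1) ^ (m - 1) := by rw [mul_assoc, h5, mul_one]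
      _ = 0 := by rw [h, zero_mul]
  · intro h
    rw [h, zero_mul]

theorem dvd_div_gcd_iff (N R a : ℕ) (hN : 0 < N) (ha : 0 < a) :
    N ∣ (N * R) / Nat.gcd (N * R) a ↔ Nat.gcd (N * R) a ∣ R := by
  set G := Nat.gcd (N * R) a with hG
  have hG0 : 0 < G := Nat.gcd_pos_of_pos_right _ ha
  have hGd : G ∣ N * R := Nat.gcd_dvd_left _ _
  constructor
  · rintro ⟨c, hc⟩
    have h1 : N * R = G * (N * c) := by rw [← hc, Nat.mul_div_cancel' hGd]
    refine ⟨c, ?_⟩
    have h2 : N * R = N * (G * c) := by rw [h1]; ring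
    exact Nat.eq_of_mul_eq_mul_left hN h2
  · rintro ⟨c, hc⟩
    refine ⟨c, ?_⟩
    have : N * R = G * (N * c) := by rw [hc]; ring
    rw [this, Nat.mul_div_cancel_left _ hG0]

theorem key (q m N R : ℕ) (hm : 0 < m) (hN2 : 2 ∣ N) (hNpos : 0 < N)
    (hNgcd : Nat.gcd N (q + 1) ∣ 2) (hRC : ∀ D, D ∣ q + 1 → (D ∣ R ↔ D ∣ m)) :
    N ∣ (N * R) / Nat.gcd (N * R) (q + 1) ↔ padicValNat 2 (q + 1) < padicValNat 2 (2 * m) := by
  rw [dvd_div_gcd_iff N R (q + 1) hNpos (by omega)]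
  set G := Nat.gcd (N * R) (q + 1) with hG
  set e := padicValNat 2 (q + 1) with he
  have hed : 2 ^ e ∣ q + 1 := pow_padicValNat_dvd
  have hC : 2 ^ e ∣ m ↔ e < padicValNat 2 (2 * m) := by
    have : Fact (Nat.Prime 2) := ⟨Nat.prime_two⟩
    rw [padicValNat.mul (by norm_num) hm.ne', padicValNat.self (by norm_num),
      padicValNat_dvd_iff_le hm.ne']
    omega
  rw [← hC]
  constructor
  · intro hGR
    have hind : ∀ j, j ≤ e → 2 ^ j ∣ R := by
      intro j
      induction j with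
      | zero => intro _; simp
      | succ j ih =>
        intro hj
        have h1 : 2 ^ j ∣ R := ih (by omega)
        have h2 : 2 ^ (j + 1) ∣ N * R := by
          rw [pow_succ, mul_comm]
          exact Nat.mul_dvd_mul hN2 h1
        have h3 : 2 ^ (j + 1) ∣ q + 1 := (pow_dvd_pow 2 hj).trans hed
        exact (Nat.dvd_gcd h2 h3).trans hGR
    exact (hRC _ hed).mp (hind e le_rfl)
  · intro hem
    have h1 : 2 ^ e ∣ R := (hRC _ hed).mpr hem
    obtain ⟨a', ha'⟩ := hed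
    have hodd : ¬ 2 ∣ a' := by
      intro h
      obtain ⟨c, hc⟩ := h
      have h2 : 2 ^ (e + 1) ∣ q + 1 := ⟨c, by rw [ha', hc, pow_succ]; ring⟩
      have : Fact (Nat.Prime 2) := ⟨Nat.prime_two⟩
      have h3 := (padicValNat_dvd_iff_le (p := 2) (a := q + 1) (n := e + 1) (by omega)).mp h2
      omega
    have hcop : Nat.Coprime (2 ^ e) a' :=
      Nat.Coprime.pow_left _ ((Nat.Prime.coprime_iff_not_dvd Nat.prime_two).mpr hodd)
    have hGq : G ∣ q + 1 := Nat.gcd_dvd_right _ _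
    have h4 : G = Nat.gcd G (2 ^ e) * Nat.gcd G a' := by
      rw [← Nat.Coprime.gcd_mul G hcop, ← ha']
      exact (Nat.gcd_eq_left hGq).symm
    rw [h4]
    apply Nat.Coprime.mul_dvd_of_dvd_of_dvd
    · exact Nat.Coprime.coprime_dvd_left (Nat.gcd_dvd_right _ _)
        (Nat.Coprime.coprime_dvd_right (Nat.gcd_dvd_right _ _) hcop)
    · exact (Nat.gcd_dvd_right _ _).trans h1
    · have h5 : Nat.gcd G a' ∣ N * R := (Nat.gcd_dvd_left _ _).trans (Nat.gcd_dvd_left _ _)
      have h6 : Nat.Coprime (Nat.gcd G a') N := by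
        have h7 : Nat.gcd (Nat.gcd G a') N ∣ 2 := by
          apply Nat.dvd_trans _ hNgcd
          apply Nat.dvd_gcd (Nat.gcd_dvd_right _ _)
          exact (Nat.gcd_dvd_left _ _).trans ((Nat.gcd_dvd_right _ _).trans ⟨2 ^ e, by rw [ha']; ring⟩)
        have h8 : Nat.gcd (Nat.gcd G a') N ∣ a' :=
          (Nat.gcd_dvd_left _ _).trans (Nat.gcd_dvd_right _ _)
        rcases (Nat.dvd_prime Nat.prime_two).mp h7 with h | h
        · exact h
        · exact absurd (h ▸ h8) hodd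
      exact h6.dvd_of_dvd_mul_left h5

end Cfsg.Agent.Lib.Helper42.PGraphU
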