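import Mathlib
import Cfsg.Agent.Lib.Helper5.SLGen

set_option autoImplicit false

namespace Cfsg.Agent.Lib.Helper42.RegUnip

open Matrix

section general

variable {F : Type*} [Field F] {ι : Type*} [Fintype ι] [DecidableEq ι]

/-- `1 + v φᵀ` is the matrix of an element of `H`. -/
def InH (H : Subgroup (Matrix.SpecialLinearGroup ι F)) (v φ : ι → F) : Prop :=
  ∃ g ∈ H, (g : Matrix ι ι F) = 1 + vecMulVec v φ

variable {H : Subgroup (Matrix.SpecialLinearGroup ι F)}

lemma coe_inv_mul (k : Matrix.SpecialLinearGroup ι F) :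
    ((k⁻¹ : Matrix.SpecialLinearGroup ι F) : Matrix ι ι F) * (k : Matrix ι ι F) = 1 := by
  rw [← Matrix.SpecialLinearGroup.coe_mul, inv_mul_cancel, Matrix.SpecialLinearGroup.coe_one]

lemma coe_mul_inv (k : Matrix.SpecialLinearGroup ι F) :
    (k : Matrix ι ι F) * ((k⁻¹ : Matrix.SpecialLinearGroup ι F) : Matrix ι ι F) = 1 := by
  rw [← Matrix.SpecialLinearGroup.coe_mul, mul_inv_cancel, Matrix.SpecialLinearGroup.coe_one]

lemma sq_zero {v φ : ι → F} (h0 : φ ⬝ᵥ v = 0) : vecMulVec v φ * vecMulVec v φ = 0 := by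
  rw [vecMulVec_mul_vecMulVec, h0, zero_smul, vecMulVec_zero]

lemma coe_inv_eq {g : Matrix.SpecialLinearGroup ι F} {v φ : ι → F}
    (hg : (g : Matrix ι ι F) = 1 + vecMulVec v φ) (h0 : φ ⬝ᵥ v = 0) :
    ((g⁻¹ : Matrix.SpecialLinearGroup ι F) : Matrix ι ι F) = 1 - vecMulVec v φ := by
  have h1 : (1 + vecMulVec v φ) * (1 - vecMulVec v φ) = 1 := by
    simp only [mul_sub, add_mul, mul_one, one_mul, sq_zero h0]
    abel
  calc ((g⁻¹ : Matrix.SpecialLinearGroup ι F) : Matrix ι ι F)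
      = ((g⁻¹ : Matrix.SpecialLinearGroup ι F) : Matrix ι ι F) *
          ((1 + vecMulVec v φ) * (1 - vecMulVec v φ)) := by rw [h1, mul_one]
    _ = 1 - vecMulVec v φ := by rw [← mul_assoc, ← hg, coe_inv_mul, one_mul]

lemma InH.conj_inv {v φ v' : ι → F} (h : InH H v φ) {k : Matrix.SpecialLinearGroup ι F}
    (hk : k ∈ H) (hv : (k : Matrix ι ι F) *ᵥ v' = v) :
    InH H v' (φ ᵥ* (k : Matrix ι ι F)) := by
  obtain ⟨g, hg, hgm⟩ := h
  refine ⟨k⁻¹ * g * k, H.mul_mem (H.mul_mem (H.inv_mem hk) hg) hk, ?_⟩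
  rw [Matrix.SpecialLinearGroup.coe_mul, Matrix.SpecialLinearGroup.coe_mul, hgm, mul_add, mul_one,
    add_mul, coe_inv_mul, mul_vecMulVec, vecMulVec_mul, ← hv, mulVec_mulVec, coe_inv_mul,
    one_mulVec]

lemma InH.conj {v φ : ι → F} {k : Matrix.SpecialLinearGroup ι F} (hk : k ∈ H)
    (h : InH H v (φ ᵥ* (k : Matrix ι ι F))) : InH H ((k : Matrix ι ι F) *ᵥ v) φ := by
  obtain ⟨g, hg, hgm⟩ := h
  refine ⟨k * g * k⁻¹, H.mul_mem (H.mul_mem hk hg) (H.inv_mem hk), ?_⟩
  rw [Matrix.SpecialLinearGroup.coe_mul, Matrix.SpecialLinearGroup.coe_mul, hgm, mul_add, mul_one,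
    add_mul, coe_mul_inv, mul_vecMulVec, vecMulVec_mul, vecMul_vecMul, coe_mul_inv, vecMul_one]

lemma InH.zero (v : ι → F) : InH H v 0 := ⟨1, H.one_mem, by simp⟩

lemma InH.add_right {v φ φ' : ι → F} (h : InH H v φ) (h' : InH H v φ') (h0 : φ ⬝ᵥ v = 0) :
    InH H v (φ + φ') := by
  obtain ⟨g, hg, hgm⟩ := h
  obtain ⟨g', hg', hgm'⟩ := h'
  refine ⟨g * g', H.mul_mem hg hg', ?_⟩
  rw [Matrix.SpecialLinearGroup.coe_mul, hgm, hgm', add_mul, mul_add, mul_add,
    vecMulVec_mul_vecMulVec, h0, zero_smul, vecMulVec_zero, vecMulVec_add]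
  simp only [mul_one, one_mul, add_zero]
  abel

lemma InH.neg_right {v φ : ι → F} (h : InH H v φ) (h0 : φ ⬝ᵥ v = 0) : InH H v (-φ) := by
  obtain ⟨g, hg, hgm⟩ := h
  refine ⟨g⁻¹, H.inv_mem hg, ?_⟩
  rw [coe_inv_eq hgm h0, vecMulVec_neg, sub_eq_add_neg]

lemma InH.smul_comm {v φ : ι → F} {a : F} : InH H (a • v) φ ↔ InH H v (a • φ) := by
  unfold InH
  rw [smul_vecMulVec, vecMulVec_smul]

lemma InH.comm {v φ v' φ' : ι → F} (h : InH H v φ) (h' : InH H v' φ') (h0 : φ ⬝ᵥ v = 0)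
    (h0' : φ' ⬝ᵥ v' = 0) (h1 : φ' ⬝ᵥ v = 0) : InH H v ((φ ⬝ᵥ v') • φ') := by
  obtain ⟨g, hg, hgm⟩ := h
  obtain ⟨g', hg', hgm'⟩ := h'
  refine ⟨g * g' * g⁻¹ * g'⁻¹,
    H.mul_mem (H.mul_mem (H.mul_mem hg hg') (H.inv_mem hg)) (H.inv_mem hg'), ?_⟩
  rw [Matrix.SpecialLinearGroup.coe_mul, Matrix.SpecialLinearGroup.coe_mul,
    Matrix.SpecialLinearGroup.coe_mul, coe_inv_eq hgm h0, coe_inv_eq hgm' h0', hgm, hgm',
    ← vecMulVec_mul_vecMulVec]
  have hXX := sq_zero h0
  have hYY := sq_zero h0'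
  have hYX : vecMulVec v' φ' * vecMulVec v φ = 0 := by
    rw [vecMulVec_mul_vecMulVec, h1, zero_smul, vecMulVec_zero]
  generalize vecMulVec v φ = X at *
  generalize vecMulVec v' φ' = Y at *
  simp only [mul_add, add_mul, mul_sub, sub_mul, mul_one, one_mul, mul_assoc, hXX, hYY, hYX,
    mul_zero, zero_mul, sub_zero, add_zero]
  abel

/-- the commutator `k⁻¹ (g k g⁻¹)` for a transvection `g` whose centre is fixed by `k`. -/
lemma coe_comm_eq {g k : Matrix.SpecialLinearGroup ι F} {v χ : ι → F}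
    (hg : (g : Matrix ι ι F) = 1 + vecMulVec v χ) (h0 : χ ⬝ᵥ v = 0)
    (hk : (k : Matrix ι ι F) *ᵥ v = v) :
    ((k⁻¹ * (g * k * g⁻¹) : Matrix.SpecialLinearGroup ι F) : Matrix ι ι F)
      = 1 + vecMulVec v (χ ᵥ* (k : Matrix ι ι F) - χ) := by
  have hkv : ((k⁻¹ : Matrix.SpecialLinearGroup ι F) : Matrix ι ι F) *ᵥ v = v := by
    conv_lhs => rw [← hk]
    rw [mulVec_mulVec, coe_inv_mul, one_mulVec]
  have h2 : (χ ᵥ* (k : Matrix ι ι F)) ⬝ᵥ v = 0 := by
    rw [← dotProduct_mulVec, hk, h0]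
  rw [Matrix.SpecialLinearGroup.coe_mul, Matrix.SpecialLinearGroup.coe_mul,
    Matrix.SpecialLinearGroup.coe_mul, coe_inv_eq hg h0, hg, ← mul_assoc, ← mul_assoc, mul_add,
    mul_one, add_mul, coe_inv_mul, mul_vecMulVec, vecMulVec_mul, hkv, add_mul, mul_sub, mul_sub,
    vecMulVec_mul_vecMulVec, h2, zero_smul, vecMulVec_zero, vecMulVec_sub]
  simp only [mul_one, one_mul, sub_zero]
  abel

end general

section jordan

variable {F : Type*} [Field F]

/-- the lower shift matrix. -/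
def Smat (F : Type*) [Field F] (n : ℕ) : Matrix (Fin n) (Fin n) F :=
  of fun i j => if (j : ℕ) + 1 = i then 1 else 0

/-- the lower Jordan block `1 - S`. -/
def Lmat (F : Type*) [Field F] (n : ℕ) : Matrix (Fin n) (Fin n) F := 1 - Smat F n

lemma Smat_pow (n k : ℕ) (i j : Fin n) :
    (Smat F n ^ k) i j = if (j : ℕ) + k = i then 1 else 0 := by
  induction k generalizing i j with
  | zero => simp [Matrix.one_apply, Fin.ext_iff, eq_comm]
  | succ k ih =>
    rw [pow_succ, Matrix.mul_apply]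
    by_cases hj : (j : ℕ) + 1 < n
    · rw [Finset.sum_eq_single (⟨(j : ℕ) + 1, hj⟩ : Fin n)]
      · rw [ih]
        simp only [Smat, of_apply, if_true, mul_one]
        congr 1
        simp only [eq_iff_iff]
        omega
      · intro b _ hb
        have : ¬ ((j : ℕ) + 1 = b) := fun h => hb (Fin.ext h.symm)
        simp [Smat, this]
      · intro h; exact absurd (Finset.mem_univ _) h
    · rw [Finset.sum_eq_zero, if_neg (by have := i.2; omega)]
      intro b _
      have : ¬ ((j : ℕ) + 1 = b) := by have := b.2; omega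
      simp [Smat, this]

lemma Lmat_det (n : ℕ) : (Lmat F n).det = 1 := by
  rw [Matrix.det_of_lowerTriangular]
  · apply Finset.prod_eq_one
    intro i _
    simp [Lmat, Smat]
  · intro i j hij
    have hij' : (i : ℕ) < j := hij
    have h1 : i ≠ j := fun h => by rw [h] at hij'; exact lt_irrefl _ hij'
    have h2 : ¬ ((j : ℕ) + 1 = i) := by omega
    simp [Lmat, Smat, Matrix.one_apply, h1, h2]

/-- the lower Jordan block as an element of `SL`. -/
def Lsl (F : Type*) [Field F] (n : ℕ) : Matrix.SpecialLinearGroup (Fin n) F :=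
  ⟨Lmat F n, Lmat_det n⟩

lemma Lsl_coe (n : ℕ) : ((Lsl F n : Matrix.SpecialLinearGroup (Fin n) F) : Matrix _ _ F) = Lmat F n :=
  rfl

lemma Lmat_nilpotent (n : ℕ) : IsNilpotent (Lmat F n - 1) := by
  refine ⟨n, ?_⟩
  have : Lmat F n - 1 = - Smat F n := by simp [Lmat]
  rw [this, neg_pow]
  have h0 : Smat F n ^ n = 0 := by
    ext i j
    rw [Smat_pow, if_neg (by have := i.2; omega)]
    rfl
  rw [h0, mul_zero]

lemma Lmat_regular (n : ℕ) (hn : 0 < n) : (Lmat F n - 1) ^ (n - 1) ≠ 0 := by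
  have : Lmat F n - 1 = - Smat F n := by simp [Lmat]
  rw [this, neg_pow]
  intro h
  have h1 := congrFun (congrFun h ⟨n - 1, by omega⟩) ⟨0, hn⟩
  rcases neg_one_pow_eq_or (Matrix (Fin n) (Fin n) F) (n - 1) with h2 | h2
  · rw [h2, one_mul, Smat_pow] at h1
    simp at h1
  · rw [h2, neg_one_mul, Matrix.neg_apply, Smat_pow] at h1
    simp at h1

lemma Lmat_row {n : ℕ} (j j' : Fin n) (h : (j' : ℕ) = j + 1) :
    Pi.single j' (1 : F) ᵥ* Lmat F n = Pi.single j' 1 - Pi.single j 1 := by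
  rw [single_one_vecMul]
  ext k
  simp only [Lmat, Smat, Matrix.sub_apply, Matrix.one_apply, of_apply, Pi.sub_apply,
    Pi.single_apply, Matrix.row]
  have e1 : (j' = k) = (k = j') := propext eq_comm
  have e2 : ((k : ℕ) + 1 = j') = (k = j) := by
    simp only [eq_iff_iff, Fin.ext_iff]; omega
  simp only [e1, e2]

lemma Lmat_row_zero {n : ℕ} (j : Fin n) (h : (j : ℕ) = 0) :
    Pi.single j (1 : F) ᵥ* Lmat F n = Pi.single j 1 := by
  rw [single_one_vecMul]
  ext k
  simp only [Lmat, Smat, Matrix.sub_apply, Matrix.one_apply, of_apply,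
    Pi.single_apply, Matrix.row]
  have e1 : (j = k) = (k = j) := propext eq_comm
  simp only [e1]
  rw [if_neg (by omega : ¬ ((k : ℕ) + 1 = j)), sub_zero]

lemma Lmat_col {n : ℕ} (j j' : Fin n) (h : (j' : ℕ) = j + 1) :
    Lmat F n *ᵥ Pi.single j (1 : F) = Pi.single j 1 - Pi.single j' 1 := by
  rw [mulVec_single_one]
  ext k
  simp only [Lmat, Smat, Matrix.sub_apply, Matrix.one_apply, of_apply, Pi.sub_apply,
    Pi.single_apply, Matrix.col, Matrix.transpose_apply]
  have e2 : ((j : ℕ) + 1 = k) = (k = j') := by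
    simp only [eq_iff_iff, Fin.ext_iff]; omega
  simp only [e2]

lemma Lmat_col_last {n : ℕ} (j : Fin n) (h : (j : ℕ) + 1 = n) :
    Lmat F n *ᵥ Pi.single j (1 : F) = Pi.single j 1 := by
  rw [mulVec_single_one]
  ext k
  simp only [Lmat, Smat, Matrix.sub_apply, Matrix.one_apply, of_apply,
    Pi.single_apply, Matrix.col, Matrix.transpose_apply]
  rw [if_neg (by have := k.2; omega : ¬ ((j : ℕ) + 1 = k)), sub_zero]

lemma Lmat_mulVec_one {n : ℕ} (z : Fin n) (hz : (z : ℕ) = 0) :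
    Lmat F n *ᵥ (fun _ => (1 : F)) = Pi.single z 1 := by
  rw [Lmat, sub_mulVec, one_mulVec]
  ext i
  simp only [Pi.sub_apply, mulVec, dotProduct, mul_one, Smat, of_apply, Pi.single_apply]
  by_cases hi : i = z
  · rw [if_pos hi, Finset.sum_eq_zero, sub_zero]
    intro b _
    rw [if_neg]
    rw [hi, hz]; omega
  · have hi0 : (i : ℕ) ≠ 0 := fun h => hi (Fin.ext (by rw [h, hz]))
    rw [if_neg hi, Finset.sum_eq_single (⟨(i : ℕ) - 1, by have := i.2; omega⟩ : Fin n)]
    · rw [if_pos (by simp only []; omega), sub_self]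
    · intro b _ hb
      rw [if_neg]
      intro h
      exact hb (Fin.ext (by simp only []; omega))
    · intro h; exact absurd (Finset.mem_univ _) h

end jordan

section gen

variable {F : Type*} [Field F] {n : ℕ} (H : Subgroup (Matrix.SpecialLinearGroup (Fin n) F))

/-- covectors `ψ` vanishing on `e_z` with `1 + e_z ψ ∈ H`. -/
def Psi (z : Fin n) : AddSubgroup (Fin n → F) where
  carrier := {φ | φ z = 0 ∧ InH H (Pi.single z 1) φ}
  zero_mem' := ⟨rfl, InH.zero _⟩
  add_mem' := fun {a b} ha hb => ⟨by simp [ha.1, hb.1], ha.2.add_right hb.2 (by simp [ha.1])⟩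
  neg_mem' := fun {a} ha => ⟨by simp [ha.1], ha.2.neg_right (by simp [ha.1])⟩

variable {H}

lemma mem_Psi {z : Fin n} {φ : Fin n → F} :
    φ ∈ Psi H z ↔ φ z = 0 ∧ InH H (Pi.single z 1) φ := Iff.rfl

lemma Psi_step (hL : Lsl F n ∈ H) {z l : Fin n} (hz : (z : ℕ) = 0) (hzl : z ≠ l)
    (h1 : Pi.single l (1 : F) ∈ Psi H z) {ψ : Fin n → F} (hψ : ψ ∈ Psi H z)
    (h0 : (ψ ᵥ* Lmat F n) z = 0) : ψ ᵥ* Lmat F n ∈ Psi H z := by
  refine ⟨h0, ?_⟩
  have h2 : InH H (fun _ => 1) (ψ ᵥ* Lmat F n) := hψ.2.conj_inv hL (Lmat_mulVec_one z hz)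
  have h3 := InH.comm h1.2 h2 (by simp [hzl])
    (by rw [← dotProduct_mulVec, Lmat_mulVec_one z hz]; simp [hψ.1]) (by simp [h0])
  have h4 : (Pi.single l (1 : F) : Fin n → F) ⬝ᵥ (fun _ => (1 : F)) = 1 := by simp
  rwa [h4, one_smul] at h3

lemma Psi_fix {z : Fin n} {k : Matrix.SpecialLinearGroup (Fin n) F} (hk : k ∈ H)
    (hk0 : (k : Matrix (Fin n) (Fin n) F) *ᵥ Pi.single z 1 = Pi.single z 1) {φ : Fin n → F}
    (hφ : φ ∈ Psi H z) : φ ᵥ* (k : Matrix (Fin n) (Fin n) F) ∈ Psi H z := by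
  refine ⟨?_, hφ.2.conj_inv hk hk0⟩
  have : (φ ᵥ* (k : Matrix (Fin n) (Fin n) F)) ⬝ᵥ Pi.single z 1 = 0 := by
    rw [← dotProduct_mulVec, hk0]; simp [hφ.1]
  simpa using this

/-- closure of the parameter set of the highest root group under a generator of `Fˣ`. -/
lemma Psi_field [Finite F] (hL : Lsl F n ∈ H) {z l pl : Fin n} (hz : (z : ℕ) = 0)
    (hl : (l : ℕ) = pl + 1) (hpl : (pl : ℕ) ≠ 0)
    (h1 : Pi.single l (1 : F) ∈ Psi H z) {k : Matrix.SpecialLinearGroup (Fin n) F} (hk : k ∈ H)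
    (hk0 : (k : Matrix (Fin n) (Fin n) F) *ᵥ Pi.single z 1 = Pi.single z 1)
    (hkl : Pi.single l (1 : F) ᵥ* (k : Matrix (Fin n) (Fin n) F) = Pi.single l 1)
    (ζ : Fˣ) (hζ : ∀ x : Fˣ, x ∈ Subgroup.zpowers ζ)
    (hkp : Pi.single pl (1 : F) ᵥ* (k : Matrix (Fin n) (Fin n) F)
      = Pi.single pl 1 - (ζ : F) • Pi.single l 1) (a : F) :
    a • (Pi.single l (1 : F) : Fin n → F) ∈ Psi H z := by
  have hzl : z ≠ l := fun h => by rw [h] at hz; omega
  have hzp : z ≠ pl := fun h => by rw [h] at hz; omega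
  have step : ∀ a : F, a • (Pi.single l (1 : F) : Fin n → F) ∈ Psi H z →
      ((ζ : F) * a) • (Pi.single l (1 : F) : Fin n → F) ∈ Psi H z := by
    intro a ha
    have e1 : (a • (Pi.single l (1 : F) : Fin n → F)) ᵥ* Lmat F n
        = a • (Pi.single l 1 - Pi.single pl 1) := by
      rw [smul_vecMul, Lmat_row pl l hl]
    have h2 : a • ((Pi.single l (1 : F) : Fin n → F) - Pi.single pl 1) ∈ Psi H z := by
      rw [← e1]
      apply Psi_step hL hz hzl h1 ha
      rw [e1]
      simp [hzl, hzp]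
    have h3 := (Psi H z).sub_mem (Psi_fix hk hk0 h2) h2
    have e2 : (a • ((Pi.single l (1 : F) : Fin n → F) - Pi.single pl 1)) ᵥ*
        (k : Matrix (Fin n) (Fin n) F) - a • ((Pi.single l (1 : F) : Fin n → F) - Pi.single pl 1)
        = ((ζ : F) * a) • (Pi.single l (1 : F) : Fin n → F) := by
      rw [smul_vecMul, sub_vecMul, hkl, hkp, mul_comm, mul_smul, ← smul_sub]
      congr 1
      abel
    rwa [e2] at h3
  have hpow : ∀ i : ℕ, ((ζ : F) ^ i) • (Pi.single l (1 : F) : Fin n → F) ∈ Psi H z := by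
    intro i
    induction i with
    | zero => simpa using h1
    | succ i ih => rw [pow_succ']; exact step _ ih
  by_cases ha : a = 0
  · rw [ha, zero_smul]; exact (Psi H z).zero_mem
  · have hx := hζ (Units.mk0 a ha)
    rw [← mem_powers_iff_mem_zpowers] at hx
    obtain ⟨i, hi⟩ := hx
    have : (ζ : F) ^ i = a := by
      have := congrArg Units.val hi
      simpa using this
    rw [← this]
    exact hpow i

/-- A subgroup of `SL_n(F)`, `n ≥ 3`, containing the lower Jordan block and the whole highest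
root subgroup is everything. -/
theorem eq_top_of_root (hn : 3 ≤ n) (hL : Lsl F n ∈ H) {z l : Fin n} (hz : (z : ℕ) = 0)
    (hl : (l : ℕ) + 1 = n)
    (hA : ∀ a : F, a • (Pi.single l (1 : F) : Fin n → F) ∈ Psi H z) : H = ⊤ := by
  have hzl : z ≠ l := fun h => by rw [h] at hz; omega
  have h1 : Pi.single l (1 : F) ∈ Psi H z := by simpa using hA 1
  -- all root elements in the first row
  have h4 : ∀ (k : ℕ) (j : Fin n), (j : ℕ) + k + 1 = n → 1 ≤ (j : ℕ) →
      ∀ a : F, a • (Pi.single j (1 : F) : Fin n → F) ∈ Psi H z := by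
    intro k
    induction k with
    | zero =>
      intro j hj _ a
      have : j = l := Fin.ext (by omega)
      rw [this]; exact hA a
    | succ k ih =>
      intro j hj hj1 a
      have hj' : (j : ℕ) + 1 < n := by omega
      have ih' := ih ⟨(j : ℕ) + 1, hj'⟩ (by simp only []; omega) (by simp only []; omega)
      have e1 : (a • (Pi.single (⟨(j : ℕ) + 1, hj'⟩ : Fin n) (1 : F) : Fin n → F)) ᵥ* Lmat F n
          = a • (Pi.single (⟨(j : ℕ) + 1, hj'⟩ : Fin n) 1 - Pi.single j 1) := by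
        rw [smul_vecMul, Lmat_row j ⟨(j : ℕ) + 1, hj'⟩ rfl]
      have hz1 : z ≠ ⟨(j : ℕ) + 1, hj'⟩ := fun h => by
        have := congrArg Fin.val h
        simp only [] at this
        omega
      have hz2 : z ≠ j := fun h => by rw [h] at hz; omega
      have h2 : a • ((Pi.single (⟨(j : ℕ) + 1, hj'⟩ : Fin n) (1 : F) : Fin n → F)
          - Pi.single j 1) ∈ Psi H z := by
        rw [← e1]
        apply Psi_step hL hz hzl h1 (ih' a)
        rw [e1]
        simp [hz1, hz2]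
      have h3 := (Psi H z).sub_mem (ih' a) h2
      have e2 : a • (Pi.single (⟨(j : ℕ) + 1, hj'⟩ : Fin n) (1 : F) : Fin n → F)
          - a • ((Pi.single (⟨(j : ℕ) + 1, hj'⟩ : Fin n) (1 : F) : Fin n → F) - Pi.single j 1)
          = a • (Pi.single j (1 : F) : Fin n → F) := by
        rw [← smul_sub]; congr 1; abel
      rwa [e2] at h3
  have h5 : ∀ φ : Fin n → F, φ z = 0 → φ ∈ Psi H z := by
    intro φ hφ
    have e : φ = ∑ j, φ j • (Pi.single j (1 : F) : Fin n → F) := by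
      ext i; simp [Finset.sum_apply, Pi.single_apply]
    rw [e]
    apply AddSubgroup.sum_mem
    intro j _
    by_cases hj : j = z
    · rw [hj, hφ, zero_smul]; exact (Psi H z).zero_mem
    · have hj0 : (j : ℕ) ≠ 0 := fun h => hj (Fin.ext (by rw [h, hz]))
      exact h4 (n - 1 - j) j (by have := j.2; omega) (by omega) _
  -- all transvections with centre a basis vector
  have hO : ∀ (k : ℕ) (j : Fin n), (j : ℕ) = k → ∀ φ : Fin n → F,
      φ ⬝ᵥ (Pi.single j (1 : F) : Fin n → F) = 0 → InH H (Pi.single j 1) φ := by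
    intro k
    induction k with
    | zero =>
      intro j hj φ hφ
      have : j = z := Fin.ext (by omega)
      rw [this] at hφ ⊢
      exact (h5 φ (by simpa using hφ)).2
    | succ k ih =>
      intro j hj φ hφ
      have hk : k < n := by have := j.2; omega
      have ih' := ih ⟨k, hk⟩ rfl
      set i : Fin n := ⟨k, hk⟩ with hi
      have hij : i ≠ j := fun h => by
        have := congrArg Fin.val h
        simp only [hi] at this
        omega
      obtain ⟨k2, hk2, hk2m⟩ := ih' (Pi.single j 1) (by simp [hij.symm])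
      -- the element `k2 * L` maps `e_i` to `- e_j`
      have hmap : ((k2 * Lsl F n : Matrix.SpecialLinearGroup (Fin n) F) : Matrix _ _ F) *ᵥ
          (Pi.single i (1 : F) : Fin n → F) = - Pi.single j 1 := by
        rw [Matrix.SpecialLinearGroup.coe_mul, ← mulVec_mulVec, Lsl_coe, Lmat_col i j (by rw [hj]),
          hk2m, add_mulVec, one_mulVec, vecMulVec_mulVec]
        have : (Pi.single j (1 : F) : Fin n → F) ⬝ᵥ (Pi.single i 1 - Pi.single j 1) = -1 := by
          rw [dotProduct_sub]; simp [hij.symm]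
        rw [this]
        ext x
        simp
        ring
      have hmem : k2 * Lsl F n ∈ H := H.mul_mem hk2 hL
      have h6 : InH H (- Pi.single j 1) (-φ) := by
        rw [← hmap]
        apply InH.conj hmem
        apply ih'
        rw [← dotProduct_mulVec, hmap]
        simp only [neg_dotProduct, dotProduct_neg, hφ, neg_zero]
      obtain ⟨g, hg, hgm⟩ := h6
      exact ⟨g, hg, by rw [hgm, neg_vecMulVec, vecMulVec_neg, neg_neg]⟩
  have : Nontrivial (Fin n) := Fin.nontrivial_iff_two_le.2 (by omega)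
  refine le_antisymm le_top (fun A _ => ?_)
  refine Cfsg.Agent.Lib.Helper5.SL_transvection_induction (fun A => A ∈ H) ?_
    (fun _ _ => H.mul_mem) A
  intro i j hij c
  obtain ⟨g, hg, hgm⟩ := hO i i rfl (c • Pi.single j 1) (by simp [hij.symm])
  have : g = Matrix.SpecialLinearGroup.transvection hij c := by
    apply Subtype.ext
    rw [hgm, Matrix.SpecialLinearGroup.transvection_coe]
    congr 1
    ext x y
    simp only [vecMulVec_apply, Pi.single_apply, Pi.smul_apply, smul_eq_mul, Matrix.single_apply]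
    have e1 : (i = x) = (x = i) := propext eq_comm
    have e2 : (j = y) = (y = j) := propext eq_comm
    simp only [e1, e2]
    by_cases hx : x = i <;> by_cases hy : y = j <;> simp [hx, hy]
  rw [← this]; exact hg

end gen

end Cfsg.Agent.Lib.Helper42.RegUnip
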