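import Mathlib
import Cfsg.Agent.Lib.Helper42.RegUnip

set_option autoImplicit false

namespace Cfsg.Agent.Lib.Helper42.RegUnip

open Matrix

section powers

variable {F : Type*} [Field F] {n : ℕ}

lemma Lmat_pow_apply (k : ℕ) (i j : Fin n) (hij : (j : ℕ) ≤ i) :
    (Lmat F n ^ k) i j = (-1) ^ ((i : ℕ) - j) * (k.choose ((i : ℕ) - j) : F) := by
  have hL : Lmat F n = (-1 : F) • Smat F n + 1 := by
    rw [Lmat, neg_one_smul]; abel
  rw [hL, (Commute.one_right _).add_pow, Matrix.sum_apply]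
  simp only [one_pow, mul_one, smul_pow, ← nsmul_eq_mul', Matrix.smul_apply, Smat_pow]
  by_cases hk : (i : ℕ) - j < k + 1
  · rw [Finset.sum_eq_single ((i : ℕ) - j)]
    · rw [if_pos (by omega)]
      simp [mul_comm]
    · intro b _ hb
      rw [if_neg (by omega)]
      simp
    · intro h
      exact absurd (Finset.mem_range.2 hk) h
  · rw [Nat.choose_eq_zero_of_lt (by omega), Finset.sum_eq_zero]
    · simp
    · intro b hb
      rw [Finset.mem_range] at hb
      rw [if_neg (by omega)]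
      simp

end powers

section general2

variable {F : Type*} [Field F] {ι : Type*} [Fintype ι] [DecidableEq ι]

/-- `1 + v₁ φ₁ᵀ - v₀ φ₀ᵀ` is the matrix of an element of `H`. -/
def InH2 (H : Subgroup (Matrix.SpecialLinearGroup ι F)) (v1 φ1 v0 φ0 : ι → F) : Prop :=
  ∃ g ∈ H, (g : Matrix ι ι F) = 1 + vecMulVec v1 φ1 - vecMulVec v0 φ0

variable {H : Subgroup (Matrix.SpecialLinearGroup ι F)}

lemma InH2.conj {v1 φ1 v0 φ0 : ι → F} {k : Matrix.SpecialLinearGroup ι F} (hk : k ∈ H)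
    (h : InH2 H v1 (φ1 ᵥ* (k : Matrix ι ι F)) v0 (φ0 ᵥ* (k : Matrix ι ι F))) :
    InH2 H ((k : Matrix ι ι F) *ᵥ v1) φ1 ((k : Matrix ι ι F) *ᵥ v0) φ0 := by
  obtain ⟨g, hg, hgm⟩ := h
  refine ⟨k * g * k⁻¹, H.mul_mem (H.mul_mem hk hg) (H.inv_mem hk), ?_⟩
  rw [Matrix.SpecialLinearGroup.coe_mul, Matrix.SpecialLinearGroup.coe_mul, hgm, mul_sub, mul_add,
    mul_one, sub_mul, add_mul, coe_mul_inv, mul_vecMulVec, vecMulVec_mul, vecMul_vecMul,
    coe_mul_inv, vecMul_one, mul_vecMulVec, vecMulVec_mul, vecMul_vecMul, coe_mul_inv, vecMul_one]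

lemma eq_coe_of_mul_eq {X : Matrix ι ι F} {g h : Matrix.SpecialLinearGroup ι F}
    (e : X * (g : Matrix ι ι F) = (h : Matrix ι ι F)) :
    ((h * g⁻¹ : Matrix.SpecialLinearGroup ι F) : Matrix ι ι F) = X := by
  rw [Matrix.SpecialLinearGroup.coe_mul, ← e, mul_assoc, coe_mul_inv, mul_one]

/-- extraction of a transvection. -/
lemma InH2.extract {y0 y1 η0 η1 : ι → F} (h : InH2 H y1 η1 y0 η0)
    (h00 : η0 ⬝ᵥ y0 = 0) (h11 : η1 ⬝ᵥ y1 = 0) (h10 : η1 ⬝ᵥ y0 = 0)
    {k : Matrix.SpecialLinearGroup ι F} (hk : k ∈ H)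
    (hk0 : (k : Matrix ι ι F) *ᵥ y0 = y0) (hk1 : (k : Matrix ι ι F) *ᵥ y1 = y1) :
    InH H y0 ((-(η0 ⬝ᵥ y1)) • (η1 ᵥ* (k : Matrix ι ι F) - η1)) := by
  obtain ⟨a, ha, ham⟩ := h
  set c := η0 ⬝ᵥ y1 with hc
  set ν := η1 ᵥ* (k : Matrix ι ι F) - η1 with hν
  set μ := η0 - η0 ᵥ* (k : Matrix ι ι F) with hμ
  have hki0 : ((k⁻¹ : Matrix.SpecialLinearGroup ι F) : Matrix ι ι F) *ᵥ y0 = y0 := by
    conv_lhs => rw [← hk0]
    rw [mulVec_mulVec, coe_inv_mul, one_mulVec]
  have hki1 : ((k⁻¹ : Matrix.SpecialLinearGroup ι F) : Matrix ι ι F) *ᵥ y1 = y1 := by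
    conv_lhs => rw [← hk1]
    rw [mulVec_mulVec, coe_inv_mul, one_mulVec]
  have hν0 : ν ⬝ᵥ y0 = 0 := by
    rw [hν, sub_dotProduct, ← dotProduct_mulVec, hk0, sub_self]
  have hν1 : ν ⬝ᵥ y1 = 0 := by
    rw [hν, sub_dotProduct, ← dotProduct_mulVec, hk1, sub_self]
  have hμ0 : μ ⬝ᵥ y0 = 0 := by
    rw [hμ, sub_dotProduct, ← dotProduct_mulVec, hk0, sub_self]
  have hμ1 : μ ⬝ᵥ y1 = 0 := by
    rw [hμ, sub_dotProduct, ← dotProduct_mulVec, hk1, sub_self]
  set M : Matrix ι ι F := 1 + vecMulVec y0 μ + vecMulVec y1 ν with hM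
  -- the conjugate of `a`
  have hconj : ((k⁻¹ * a * k : Matrix.SpecialLinearGroup ι F) : Matrix ι ι F)
      = 1 + vecMulVec y1 (η1 ᵥ* (k : Matrix ι ι F)) - vecMulVec y0 (η0 ᵥ* (k : Matrix ι ι F)) := by
    rw [Matrix.SpecialLinearGroup.coe_mul, Matrix.SpecialLinearGroup.coe_mul, ham, mul_sub,
      mul_add, mul_one, sub_mul, add_mul, coe_inv_mul, mul_vecMulVec, vecMulVec_mul, hki1,
      mul_vecMulVec, vecMulVec_mul, hki0]
  have hMa : M * (a : Matrix ι ι F) = 1 + vecMulVec y1 η1 - vecMulVec y0 η0 + vecMulVec y0 μ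
      + vecMulVec y1 ν := by
    rw [hM, ham]
    simp only [add_mul, mul_add, mul_sub, one_mul, mul_one, vecMulVec_mul_vecMulVec, hν0, hν1, hμ0,
      hμ1, zero_smul, vecMulVec_zero, add_zero]
    abel
  have hD : ((k⁻¹ * a * k * a⁻¹ : Matrix.SpecialLinearGroup ι F) : Matrix ι ι F) = M := by
    apply eq_coe_of_mul_eq
    rw [hMa, hconj, hμ, hν, vecMulVec_sub, vecMulVec_sub]
    abel
  have hDH : k⁻¹ * a * k * a⁻¹ ∈ H :=
    H.mul_mem (H.mul_mem (H.mul_mem (H.inv_mem hk) ha) hk) (H.inv_mem ha)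
  generalize k⁻¹ * a * k * a⁻¹ = D at hD hDH
  refine ⟨a * D * (D * a)⁻¹, H.mul_mem (H.mul_mem ha hDH) (H.inv_mem (H.mul_mem hDH ha)), ?_⟩
  apply eq_coe_of_mul_eq
  rw [Matrix.SpecialLinearGroup.coe_mul, Matrix.SpecialLinearGroup.coe_mul, hD, hMa]
  rw [hM, ham]
  have hν0' : ((-c) • ν) ⬝ᵥ y0 = 0 := by rw [smul_dotProduct, hν0, smul_zero]
  have hν1' : ((-c) • ν) ⬝ᵥ y1 = 0 := by rw [smul_dotProduct, hν1, smul_zero]
  simp only [add_mul, mul_add, mul_sub, sub_mul, one_mul, mul_one, vecMulVec_mul_vecMulVec, hν0',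
    hν1', h00, h11, h10, zero_smul, vecMulVec_zero, sub_zero, add_zero, ← hc]
  rw [vecMulVec_smul, vecMulVec_smul, neg_smul]
  abel

end general2

section chain

variable {F : Type*} [Field F] {m : ℕ}

/-- `y_j = L^j e_0`. -/
def yv (F : Type*) [Field F] (m j : ℕ) : Fin (m + 2) → F :=
  (Lmat F (m + 2) ^ j) *ᵥ Pi.single 0 1

/-- `θ_k = e_l L^k`. -/
def th (F : Type*) [Field F] (m k : ℕ) : Fin (m + 2) → F :=
  Pi.single (Fin.last (m + 1)) 1 ᵥ* (Lmat F (m + 2) ^ k)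

/-- the corner entry of `L^k`. -/
def cc (F : Type*) [Field F] (m k : ℕ) : F := (-1) ^ (m + 1) * (k.choose (m + 1) : F)

lemma th_dot_yv (k j : ℕ) : th F m k ⬝ᵥ yv F m j = cc F m (k + j) := by
  rw [th, yv, dotProduct_mulVec, vecMul_vecMul, ← pow_add, single_one_vecMul,
    dotProduct_single_one]
  exact Lmat_pow_apply (k + j) (Fin.last (m + 1)) 0 (Nat.zero_le _)

lemma th_succ (k : ℕ) : th F m k ᵥ* Lmat F (m + 2) = th F m (k + 1) := by
  rw [th, th, vecMul_vecMul, ← pow_succ]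

lemma yv_succ (j : ℕ) : Lmat F (m + 2) *ᵥ yv F m j = yv F m (j + 1) := by
  rw [yv, yv, mulVec_mulVec, ← pow_succ']

lemma th_zero : th F m 0 = Pi.single (Fin.last (m + 1)) 1 := by
  rw [th, pow_zero, vecMul_one]

lemma yv_zero : yv F m 0 = Pi.single 0 1 := by
  rw [yv, pow_zero, one_mulVec]

lemma cc_eq_zero {k : ℕ} (hk : k ≤ m) : cc F m k = 0 := by
  rw [cc, Nat.choose_eq_zero_of_lt (by omega), Nat.cast_zero, mul_zero]

lemma cc_one : cc F m (m + 1) = (-1) ^ (m + 1) := by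
  rw [cc, Nat.choose_self, Nat.cast_one, mul_one]

lemma cc_one_sq : cc F m (m + 1) * cc F m (m + 1) = 1 := by
  rw [cc_one, ← pow_add, ← two_mul, pow_mul]; simp

lemma th_apply_zero {k : ℕ} (hk : k ≤ m) : th F m k 0 = 0 := by
  have := th_dot_yv (F := F) (m := m) k 0
  rw [yv_zero, dotProduct_single_one, add_zero, cc_eq_zero hk] at this
  exact this

variable {H : Subgroup (Matrix.SpecialLinearGroup (Fin (m + 2)) F)}

lemma Psi_step' (hL : Lsl F (m + 2) ∈ H) {a : F}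
    (h1 : a • (Pi.single (Fin.last (m + 1)) (1 : F) : Fin (m + 2) → F) ∈ Psi H 0)
    {ψ : Fin (m + 2) → F} (hψ : ψ ∈ Psi H 0)
    (h0 : (ψ ᵥ* Lmat F (m + 2)) 0 = 0) : a • (ψ ᵥ* Lmat F (m + 2)) ∈ Psi H 0 := by
  refine ⟨by simp [h0], ?_⟩
  have h2 : InH H (fun _ => 1) (ψ ᵥ* Lmat F (m + 2)) := hψ.2.conj_inv hL (Lmat_mulVec_one 0 rfl)
  have h3 := InH.comm h1.2 h2 (by simp)
    (by rw [← dotProduct_mulVec, Lmat_mulVec_one 0 rfl]; simp [hψ.1]) (by simp [h0])
  have h4 : (a • (Pi.single (Fin.last (m + 1)) (1 : F) : Fin (m + 2) → F)) ⬝ᵥ (fun _ => (1 : F))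
      = a := by simp
  rwa [h4] at h3

/-- the standing hypotheses. -/
structure Chain (H : Subgroup (Matrix.SpecialLinearGroup (Fin (m + 2)) F)) (t : F) : Prop where
  hL : Lsl F (m + 2) ∈ H
  ha : ∀ j k, j + k + 1 = m →
    InH2 H (yv F m (j + 1)) (t • th F m k) (yv F m j) (t • th F m (k + 1))

/-- `s θ_k` is the covector of a transvection of `H` with centre `e_0`. -/
def QQ (H : Subgroup (Matrix.SpecialLinearGroup (Fin (m + 2)) F)) (k : ℕ) (s : F) : Prop :=
  s • th F m k ∈ Psi H 0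

lemma Chain.of_base {t : F} (hL : Lsl F (m + 2) ∈ H)
    (h0 : ∀ k, k + 1 = m → InH2 H (yv F m 1) (t • th F m k) (yv F m 0) (t • th F m (k + 1))) :
    Chain H t := by
  refine ⟨hL, ?_⟩
  intro j
  induction j with
  | zero => intro k hk; exact h0 k (by omega)
  | succ j ih =>
    intro k hk
    have h1 := ih (k + 1) (by omega)
    rw [← th_succ (k + 1), ← th_succ k, ← smul_vecMul, ← smul_vecMul, th_succ k] at h1
    have h2 := InH2.conj hL h1
    rwa [Lsl_coe, yv_succ, yv_succ] at h2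

lemma coe2_mulVec {a : Matrix (Fin (m + 2)) (Fin (m + 2)) F} {v1 φ1 v0 φ0 : Fin (m + 2) → F}
    (ha : a = 1 + vecMulVec v1 φ1 - vecMulVec v0 φ0) (x : Fin (m + 2) → F) :
    a *ᵥ x = x + (φ1 ⬝ᵥ x) • v1 - (φ0 ⬝ᵥ x) • v0 := by
  rw [ha, sub_mulVec, add_mulVec, one_mulVec, vecMulVec_mulVec, vecMulVec_mulVec, op_smul_eq_smul,
    op_smul_eq_smul]

lemma coe2_vecMul {a : Matrix (Fin (m + 2)) (Fin (m + 2)) F} {v1 φ1 v0 φ0 : Fin (m + 2) → F}
    (ha : a = 1 + vecMulVec v1 φ1 - vecMulVec v0 φ0) (x : Fin (m + 2) → F) :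
    x ᵥ* a = x + (x ⬝ᵥ v1) • φ1 - (x ⬝ᵥ v0) • φ0 := by
  rw [ha, vecMul_sub, vecMul_add, vecMul_one, vecMul_vecMulVec, vecMul_vecMulVec]

/-- going up: `(R_i)`. -/
lemma Chain.up {t : F} (hC : Chain H t) {K : ℕ} (hK : K ≤ m) {s : F} (hs : QQ H K s) :
    ∀ i k, k + i = K → QQ H k (s * t * cc F m (m + i)) := by
  intro i
  induction i with
  | zero =>
    intro k _
    rw [QQ, add_zero, cc_eq_zero le_rfl, mul_zero, zero_smul]
    exact (Psi H 0).zero_mem
  | succ i ih =>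
    intro k hk
    obtain ⟨j, hj⟩ : ∃ j, j + k + 1 = m := ⟨m - k - 1, by omega⟩
    obtain ⟨a, haH, ham⟩ := hC.ha j k hj
    have hfix : (a : Matrix (Fin (m + 2)) (Fin (m + 2)) F) *ᵥ Pi.single 0 1 = Pi.single 0 1 := by
      rw [coe2_mulVec ham, ← yv_zero, smul_dotProduct, smul_dotProduct, th_dot_yv, th_dot_yv,
        cc_eq_zero (by omega), cc_eq_zero (by omega)]
      simp
    have h1 := Psi_fix haH hfix hs
    rw [coe2_vecMul ham, smul_dotProduct, smul_dotProduct, th_dot_yv, th_dot_yv] at h1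
    have h2 := ih (k + 1) (by omega)
    have h3 := (Psi H 0).add_mem ((Psi H 0).sub_mem h1 hs) h2
    have e1 : K + (j + 1) = m + (i + 1) := by omega
    have e2 : K + j = m + i := by omega
    rw [e1, e2] at h3
    rw [QQ]
    convert h3 using 1
    simp only [smul_smul, smul_eq_mul]
    rw [show s * cc F m (m + i) * t = s * t * cc F m (m + i) by ring,
      show s * cc F m (m + (i + 1)) * t = s * t * cc F m (m + (i + 1)) by ring]
    abel

/-- going down: `(R2)`. -/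
lemma Chain.down {t : F} (hC : Chain H t) {a s : F} {k : ℕ} (hk : k + 1 ≤ m) (ha : QQ H 0 a)
    (hs : QQ H k s) : QQ H (k + 1) (a * s) := by
  rw [QQ, th_zero] at ha
  have := Psi_step' hC.hL ha hs (by rw [smul_vecMul, th_succ]; simp [th_apply_zero hk])
  rwa [smul_vecMul, th_succ, smul_smul] at this

/-- the first transvection. -/
lemma Chain.base {t : F} (hC : Chain H t) {k : ℕ} (hk : k + 2 = m) : QQ H k (-(t ^ 3)) := by
  obtain ⟨a1, ha1H, ha1m⟩ := hC.ha 1 k (by omega)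
  have h0 := hC.ha 0 (k + 1) (by omega)
  have hf0 : (a1 : Matrix _ _ F) *ᵥ yv F m 0 = yv F m 0 := by
    rw [coe2_mulVec ha1m, smul_dotProduct, smul_dotProduct, th_dot_yv, th_dot_yv,
      cc_eq_zero (by omega), cc_eq_zero (by omega)]
    simp
  have hf1 : (a1 : Matrix _ _ F) *ᵥ yv F m (0 + 1) = yv F m (0 + 1) := by
    rw [coe2_mulVec ha1m, smul_dotProduct, smul_dotProduct, th_dot_yv, th_dot_yv,
      cc_eq_zero (by omega), cc_eq_zero (by omega)]
    simp
  have h1 := h0.extract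
    (by rw [smul_dotProduct, th_dot_yv, cc_eq_zero (by omega), smul_zero])
    (by rw [smul_dotProduct, th_dot_yv, cc_eq_zero (by omega), smul_zero])
    (by rw [smul_dotProduct, th_dot_yv, cc_eq_zero (by omega), smul_zero]) ha1H hf0 hf1
  rw [coe2_vecMul ha1m, smul_dotProduct, smul_dotProduct, smul_dotProduct, th_dot_yv, th_dot_yv,
    th_dot_yv, cc_eq_zero (show k + 1 + 1 ≤ m by omega),
    show k + 1 + 1 + (0 + 1) = m + 1 by omega] at h1
  refine ⟨by simp [th_apply_zero (show k ≤ m by omega)], ?_⟩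
  rw [← yv_zero]
  rw [smul_zero, zero_smul, sub_zero, add_sub_cancel_left, smul_smul, smul_smul] at h1
  convert h1 using 2
  have := cc_one_sq (F := F) (m := m)
  simp only [smul_eq_mul]
  linear_combination (t ^ 3) * this

end chain

section nt

lemma choose_not_dvd (p : ℕ) [hp : Fact p.Prime] (ν n' : ℕ) (hn' : ¬ p ∣ n') :
    ¬ p ∣ (p ^ ν * n' + p ^ ν - 1).choose (p ^ ν) := by
  induction ν with
  | zero => simpa using hn'
  | succ ν ih =>
    have hp0 : 0 < p := hp.out.pos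
    have hM : 0 < p ^ ν * n' + p ^ ν := by positivity
    obtain ⟨M', hM'⟩ : ∃ M', p ^ ν * n' + p ^ ν = M' + 1 := ⟨p ^ ν * n' + p ^ ν - 1, by omega⟩
    have e1 : p ^ (ν + 1) * n' + p ^ (ν + 1) - 1 = p * M' + (p - 1) := by
      have : p ^ (ν + 1) * n' + p ^ (ν + 1) = p * (M' + 1) := by rw [← hM']; ring
      rw [this, mul_add, mul_one]; omega
    have h := Choose.choose_modEq_choose_mod_mul_choose_div_nat
      (n := p ^ (ν + 1) * n' + p ^ (ν + 1) - 1) (k := p ^ (ν + 1)) (p := p)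
    have e2 : p ^ (ν + 1) % p = 0 := by rw [pow_succ]; simp
    have e3 : p ^ (ν + 1) / p = p ^ ν := by rw [pow_succ]; exact Nat.mul_div_cancel _ hp0
    have e4 : (p * M' + (p - 1)) / p = M' := by
      rw [Nat.mul_add_div hp0, Nat.div_eq_of_lt (by omega), add_zero]
    rw [e2, e3, e1, e4, Nat.choose_zero_right, one_mul] at h
    rw [e1, h.dvd_iff dvd_rfl]
    have : M' = p ^ ν * n' + p ^ ν - 1 := by omega
    rw [this]; exact ih

lemma exists_nu (p : ℕ) [hp : Fact p.Prime] (m : ℕ) (hm : 2 ≤ m) :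
    ∃ ν, p ^ ν = m + 2 ∨ (p ^ ν + 1 ≤ m ∧ ¬ p ∣ (m + (p ^ ν + 1)).choose (m + 1)) := by
  obtain ⟨ν, n', hn', he⟩ := Nat.exists_eq_pow_mul_and_not_dvd (n := m + 2) (by omega) p
    hp.out.ne_one
  refine ⟨ν, ?_⟩
  have hP : 0 < p ^ ν := by have := hp.out.pos; positivity
  by_cases h1 : n' = 1
  · left; rw [he, h1, mul_one]
  · right
    have h0 : n' ≠ 0 := fun h => hn' (h ▸ dvd_zero p)
    constructor
    · by_contra hcon
      have h3 : p ^ ν * n' < p ^ ν + 3 := by omega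
      have h4 : n' < 4 := by
        by_contra h
        have : p ^ ν * 4 ≤ p ^ ν * n' := Nat.mul_le_mul_left _ (by omega)
        omega
      have h5 : n' = 2 ∨ n' = 3 := by omega
      rcases h5 with h5 | h5
      · rw [h5] at h3 he
        have h6 : p ^ ν = 2 := by omega
        apply hn'
        rw [h5, ← h6]
        apply dvd_pow_self
        rintro rfl
        simp at h6
      · rw [h5] at h3 he
        omega
    · have := choose_not_dvd p ν n' hn'
      have e : m + (p ^ ν + 1) = p ^ ν * n' + p ^ ν - 1 := by omega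
      rw [e]
      have e2 : p ^ ν * n' + p ^ ν - 1 = (m + 1) + p ^ ν := by omega
      rw [e2, Nat.choose_symm_add, ← e2]
      exact this

end nt

section closure

variable {F : Type*} [Field F] {m : ℕ}

/-- the stabiliser ring of the parameter set of the highest root group. -/
def stab (H : Subgroup (Matrix.SpecialLinearGroup (Fin (m + 2)) F)) : Subring F where
  carrier := {x | ∀ a, QQ H 0 a → QQ H 0 (x * a)}
  mul_mem' := fun {x y} hx hy a ha => by rw [mul_assoc]; exact hx _ (hy _ ha)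
  one_mem' := fun a ha => by rwa [one_mul]
  add_mem' := fun {x y} hx hy a ha => by
    rw [add_mul, QQ, add_smul]; exact (Psi H 0).add_mem (hx a ha) (hy a ha)
  zero_mem' := fun a _ => by rw [zero_mul, QQ, zero_smul]; exact (Psi H 0).zero_mem
  neg_mem' := fun {x} hx a ha => by rw [neg_mul, QQ, neg_smul]; exact (Psi H 0).neg_mem (hx a ha)

variable {H : Subgroup (Matrix.SpecialLinearGroup (Fin (m + 2)) F)}

lemma mem_stab {x : F} : x ∈ stab H ↔ ∀ a, QQ H 0 a → QQ H 0 (x * a) := Iff.rfl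

lemma stab_inv [Fintype F] {x : F} (hx : x ∈ stab H) : x⁻¹ ∈ stab H := by
  by_cases h0 : x = 0
  · rw [h0, _root_.inv_zero]; exact (stab H).zero_mem
  · have h1 := FiniteField.pow_card_sub_one_eq_one x h0
    have h2 : 2 ≤ Fintype.card F := Fintype.one_lt_card
    have h3 : x⁻¹ = x ^ (Fintype.card F - 2) := by
      apply inv_eq_of_mul_eq_one_right
      rw [← pow_succ', show Fintype.card F - 2 + 1 = Fintype.card F - 1 by omega, h1]
    rw [h3]; exact (stab H).pow_mem hx _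

lemma cc_mem_stab (k : ℕ) : cc F m k ∈ stab H :=
  (stab H).mul_mem ((stab H).pow_mem ((stab H).neg_mem (stab H).one_mem) _) (natCast_mem _ _)

theorem Chain.eq_top [Fintype F] {ζ : Fˣ} (hζ : ∀ x : Fˣ, x ∈ Subgroup.zpowers ζ) (hm : 2 ≤ m)
    (hC : Chain H (ζ : F)) : H = ⊤ := by
  classical
  obtain ⟨t, htdef⟩ : ∃ t : F, t = (ζ : F) := ⟨_, rfl⟩
  rw [← htdef] at hC
  have ht : t ≠ 0 := by rw [htdef]; exact ζ.ne_zero
  obtain ⟨c1, hc1⟩ : ∃ c1 : F, c1 = cc F m (m + 1) := ⟨_, rfl⟩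
  have hc1sq : c1 * c1 = 1 := by rw [hc1]; exact cc_one_sq
  have hc1K : c1 ∈ stab H := by rw [hc1]; exact cc_mem_stab _
  have hc10 : c1 ≠ 0 := fun h => by rw [h] at hc1sq; simp at hc1sq
  obtain ⟨k0, hk0⟩ : ∃ k0, k0 + 2 = m := ⟨m - 2, by omega⟩
  -- (S1)
  have S1 : ∀ i k, i + k + 2 = m → QQ H k (-(t ^ 3) * (t * c1) ^ i) := by
    intro i
    induction i with
    | zero => intro k hk; rw [pow_zero, mul_one]; exact hC.base (by omega)
    | succ i ih =>
      intro k hk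
      have := hC.up (K := k + 1) (by omega) (ih (k + 1) (by omega)) 1 k rfl
      rw [← hc1] at this
      rwa [pow_succ (t * c1), ← mul_assoc, ← mul_assoc]
  obtain ⟨a0, ha0⟩ : ∃ a0 : F, a0 = -(t ^ 3) * (t * c1) ^ k0 := ⟨_, rfl⟩
  have hQa0 : QQ H 0 a0 := by rw [ha0]; exact S1 k0 0 (by omega)
  have ha00 : a0 ≠ 0 := by
    rw [ha0]; exact mul_ne_zero (neg_ne_zero.2 (pow_ne_zero _ ht)) (pow_ne_zero _ (mul_ne_zero ht hc10))
  -- (S2)
  have S2 : ∀ a, QQ H 0 a → ∀ i, i ≤ m → QQ H i (a0 ^ i * a) := by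
    intro a ha i
    induction i with
    | zero => intro _; rwa [pow_zero, one_mul]
    | succ i ih =>
      intro hi
      have := hC.down hi hQa0 (ih (by omega))
      rwa [pow_succ', mul_assoc]
  -- (S3)
  have S3 : ∀ i, i ≤ m → a0 ^ i * t * cc F m (m + i) ∈ stab H := by
    intro i hi a ha
    have := hC.up hi (S2 a ha i hi) i 0 (by omega)
    convert this using 1
    ring
  have hx1 : a0 * t * c1 ∈ stab H := by
    have := S3 1 (by omega)
    rwa [pow_one, ← hc1] at this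
  -- the characteristic
  obtain ⟨p, hp⟩ := CharP.exists F
  have : Fact p.Prime := ⟨CharP.char_is_prime F p⟩
  obtain ⟨f, -, hf⟩ := FiniteField.card F p
  obtain ⟨ν, hν⟩ := exists_nu p m hm
  have S5 : t ^ (p ^ ν) ∈ stab H := by
    rcases hν with hν | ⟨hν1, hν2⟩
    · rw [hν]
      have e : t ^ (m + 2) = -(c1 ^ (k0 + 1)) * (a0 * t * c1) := by
        have h2 : c1 ^ (k0 + 1) * c1 ^ (k0 + 1) = 1 := by rw [← mul_pow, hc1sq, one_pow]
        rw [ha0, ← hk0, mul_pow]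
        linear_combination (-(t ^ (k0 + 2 + 2))) * h2
      rw [e]
      exact (stab H).mul_mem ((stab H).neg_mem ((stab H).pow_mem hc1K _)) hx1
    · set r := p ^ ν with hr
      have hcr : cc F m (m + (r + 1)) ≠ 0 := by
        rw [cc]
        apply mul_ne_zero (pow_ne_zero _ (by simp))
        rwa [Ne, CharP.cast_eq_zero_iff F p]
      have hxr := S3 (r + 1) hν1
      have e : t ^ r = (a0 * t * c1) ^ (r + 1) * (a0 ^ (r + 1) * t * cc F m (m + (r + 1)))⁻¹
          * cc F m (m + (r + 1)) * c1 ^ (r + 1) := by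
        have h2 : c1 ^ (r + 1) * c1 ^ (r + 1) = 1 := by rw [← mul_pow, hc1sq, one_pow]
        have h3 : a0 ^ (r + 1) ≠ 0 := pow_ne_zero _ ha00
        field_simp
        rw [mul_pow, mul_pow]
        linear_combination (-(t ^ (r + 1) * a0 ^ (r + 1))) * h2
      rw [e]
      exact (stab H).mul_mem ((stab H).mul_mem ((stab H).mul_mem ((stab H).pow_mem hx1 _)
        (stab_inv hxr)) (cc_mem_stab _)) ((stab H).pow_mem hc1K _)
  have S6 : t ∈ stab H := by
    have h1 := FiniteField.pow_card_pow ν t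
    obtain ⟨f', hf'⟩ : ∃ f', (f : ℕ) = f' + 1 := ⟨(f : ℕ) - 1, by have := f.pos; omega⟩
    rw [hf, hf', ← pow_mul, add_mul, one_mul, add_comm, pow_add, pow_mul] at h1
    rw [← h1]
    exact (stab H).pow_mem S5 _
  have S7 : ∀ x : F, x ∈ stab H := by
    intro x
    by_cases hx : x = 0
    · rw [hx]; exact (stab H).zero_mem
    · have hx' := hζ (Units.mk0 x hx)
      rw [← mem_powers_iff_mem_zpowers] at hx'
      obtain ⟨i, hi⟩ := hx'
      have : t ^ i = x := by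
        have := congrArg Units.val hi
        rw [htdef]
        simpa using this
      rw [← this]
      exact (stab H).pow_mem S6 _
  apply eq_top_of_root (by omega) hC.hL (z := 0) (l := Fin.last (m + 1)) rfl (by simp)
  intro b
  have := S7 (b * a0⁻¹) a0 hQa0
  rwa [inv_mul_cancel_right₀ ha00, QQ, th_zero] at this

lemma det_one_add_vecMulVec {ι : Type*} [Fintype ι] [DecidableEq ι] (v φ : ι → F)
    (h : φ ⬝ᵥ v = 0) : (1 + vecMulVec v φ).det = 1 := by
  rw [vecMulVec_eq Unit, det_one_add_replicateCol_mul_replicateRow, h, add_zero]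

/-- `SL_n(F)`, `n ≥ 4`, is generated by two conjugates of the Jordan block. -/
theorem exists_conj_closure_eq_top [Fintype F] (hm : 2 ≤ m) :
    ∃ g : Matrix.SpecialLinearGroup (Fin (m + 2)) F,
      Subgroup.closure ({Lsl F (m + 2), g * Lsl F (m + 2) * g⁻¹} :
        Set (Matrix.SpecialLinearGroup (Fin (m + 2)) F)) = ⊤ := by
  classical
  obtain ⟨ζ, hζ⟩ := IsCyclic.exists_generator (α := Fˣ)
  have h0 : ((ζ : F) • th F m m) ⬝ᵥ yv F m 0 = 0 := by
    rw [smul_dotProduct, th_dot_yv, cc_eq_zero (by omega), smul_zero]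
  set g : Matrix.SpecialLinearGroup (Fin (m + 2)) F :=
    ⟨1 + vecMulVec (yv F m 0) ((ζ : F) • th F m m), det_one_add_vecMulVec _ _ h0⟩ with hg
  have hgm : (g : Matrix (Fin (m + 2)) (Fin (m + 2)) F)
      = 1 + vecMulVec (yv F m 0) ((ζ : F) • th F m m) := rfl
  refine ⟨g, ?_⟩
  set u := Lsl F (m + 2) with hu
  set H := Subgroup.closure ({u, g * u * g⁻¹} :
    Set (Matrix.SpecialLinearGroup (Fin (m + 2)) F)) with hH
  have huH : u ∈ H := Subgroup.subset_closure (by simp)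
  have hvH : g * u * g⁻¹ ∈ H := Subgroup.subset_closure (by simp)
  apply Chain.eq_top hζ hm
  apply Chain.of_base huH
  intro k hk
  refine ⟨u * (g * u * g⁻¹)⁻¹, H.mul_mem huH (H.inv_mem hvH), ?_⟩
  have e : u * (g * u * g⁻¹)⁻¹ = u * g * u⁻¹ * g⁻¹ := by group
  have h1 : ((ζ : F) • th F m k) ⬝ᵥ yv F m 0 = 0 := by
    rw [smul_dotProduct, th_dot_yv, cc_eq_zero (by omega), smul_zero]
  have h2 : ((ζ : F) • th F m m) ᵥ*
      ((u⁻¹ : Matrix.SpecialLinearGroup (Fin (m + 2)) F) : Matrix (Fin (m + 2)) (Fin (m + 2)) F)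
      = (ζ : F) • th F m k := by
    have : th F m m = th F m k ᵥ* (u : Matrix (Fin (m + 2)) (Fin (m + 2)) F) := by
      rw [hu, Lsl_coe, th_succ, hk]
    rw [this, smul_vecMul, vecMul_vecMul, coe_mul_inv, vecMul_one]
  have h3 : (u : Matrix (Fin (m + 2)) (Fin (m + 2)) F) *ᵥ yv F m 0 = yv F m 1 := by
    rw [hu, Lsl_coe, yv_succ]
  have h4 : th F m (k + 1) = th F m m := by rw [hk]
  rw [e, Matrix.SpecialLinearGroup.coe_mul, Matrix.SpecialLinearGroup.coe_mul,
    Matrix.SpecialLinearGroup.coe_mul, coe_inv_eq hgm h0, hgm, mul_add, mul_one, add_mul,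
    coe_mul_inv, mul_vecMulVec, vecMulVec_mul, h2, h3, h4, add_mul, mul_sub, mul_sub,
    vecMulVec_mul_vecMulVec, h1, zero_smul, vecMulVec_zero]
  simp only [mul_one, one_mul, sub_zero]
  abel

lemma conj_sub_one_pow {n : ℕ} (g u : Matrix.SpecialLinearGroup (Fin n) F) (k : ℕ) :
    (((g * u * g⁻¹ : Matrix.SpecialLinearGroup (Fin n) F) : Matrix (Fin n) (Fin n) F) - 1) ^ k
      = (g : Matrix (Fin n) (Fin n) F) * ((u : Matrix (Fin n) (Fin n) F) - 1) ^ k *
        ((g⁻¹ : Matrix.SpecialLinearGroup (Fin n) F) : Matrix (Fin n) (Fin n) F) := by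
  have e : ((g * u * g⁻¹ : Matrix.SpecialLinearGroup (Fin n) F) : Matrix (Fin n) (Fin n) F) - 1
      = (g : Matrix (Fin n) (Fin n) F) * ((u : Matrix (Fin n) (Fin n) F) - 1) *
        ((g⁻¹ : Matrix.SpecialLinearGroup (Fin n) F) : Matrix (Fin n) (Fin n) F) := by
    rw [Matrix.SpecialLinearGroup.coe_mul, Matrix.SpecialLinearGroup.coe_mul, mul_sub, sub_mul,
      mul_one, coe_mul_inv]
  induction k with
  | zero => rw [pow_zero, pow_zero, mul_one, coe_mul_inv]
  | succ k ih =>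
    rw [pow_succ, ih, e, pow_succ]
    simp only [mul_assoc]
    rw [← mul_assoc (((g⁻¹ : Matrix.SpecialLinearGroup (Fin n) F) : Matrix (Fin n) (Fin n) F)),
      coe_inv_mul, one_mul]

lemma conj_regular {n : ℕ} (g u : Matrix.SpecialLinearGroup (Fin n) F)
    (h : IsNilpotent ((u : Matrix (Fin n) (Fin n) F) - 1) ∧
      ((u : Matrix (Fin n) (Fin n) F) - 1) ^ (n - 1) ≠ 0) :
    IsNilpotent (((g * u * g⁻¹ : Matrix.SpecialLinearGroup (Fin n) F) :
        Matrix (Fin n) (Fin n) F) - 1) ∧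
      (((g * u * g⁻¹ : Matrix.SpecialLinearGroup (Fin n) F) :
        Matrix (Fin n) (Fin n) F) - 1) ^ (n - 1) ≠ 0 := by
  obtain ⟨⟨k, hk⟩, h2⟩ := h
  refine ⟨⟨k, by rw [conj_sub_one_pow, hk, mul_zero, zero_mul]⟩, ?_⟩
  intro h0
  apply h2
  rw [conj_sub_one_pow] at h0
  have := congrArg (fun X => ((g⁻¹ : Matrix.SpecialLinearGroup (Fin n) F) :
    Matrix (Fin n) (Fin n) F) * X * (g : Matrix (Fin n) (Fin n) F)) h0
  simp only [mul_zero, zero_mul] at this
  rwa [← mul_assoc, ← mul_assoc, coe_inv_mul, one_mul, mul_assoc, coe_inv_mul, mul_one] at this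

end closure

end Cfsg.Agent.Lib.Helper42.RegUnip
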