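import Mathlib
import Cfsg.Agent.Lib.Helper42.RegUnip2

set_option autoImplicit false

namespace Cfsg.Agent.Lib.Helper42.RegUnip

open Matrix

section three

variable {F : Type*} [Field F]

/-- the upper triangular matrix `W`. -/
def Wm (l a b w : F) : Matrix (Fin 3) (Fin 3) F := !![l, a, w; 0, (l⁻¹) ^ 2, b; 0, 0, l]

/-- the conjugating matrix. -/
def gm (l a w : F) : Matrix (Fin 3) (Fin 3) F :=
  !![l, l * (1 - l + a), l * ((1 - l + a) ^ 2 + (l⁻¹) ^ 2 * (w - a)); 0, l⁻¹, l⁻¹ * (l - 1); 0, 0, 1]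

lemma Lmat3 : Lmat F 3 = !![1, 0, 0; -1, 1, 0; 0, -1, 1] := by
  ext i j
  fin_cases i <;> fin_cases j <;> simp [Lmat, Smat]

lemma gm_det (l a w : F) (hl : l ≠ 0) : (gm l a w).det = 1 := by
  rw [gm, Matrix.det_fin_three]
  simp [hl]

lemma conj_identity (l a b w : F) (hl : l ≠ 0) (hb : b = 2 * l + (l⁻¹) ^ 2 - 3 - a)
    (hw : w = l ^ 2 * (a * b - 3 + l⁻¹ - l ^ 2 + 3 * l)) :
    Wm l a b w * (Lmat F 3 * gm l a w) = gm l a w * Lmat F 3 := by
  subst hw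
  subst hb
  rw [Lmat3, Wm, gm]
  ext i j
  fin_cases i <;> fin_cases j <;>
    simp [Matrix.mul_apply, Fin.sum_univ_three] <;> field_simp <;> ring

lemma Wm_col0 (l a b w : F) : Wm l a b w *ᵥ Pi.single 0 1 = l • (Pi.single 0 1 : Fin 3 → F) := by
  rw [mulVec_single_one]
  ext j
  fin_cases j <;> simp [Wm, Matrix.col]

lemma Wm_row1 (l a b w : F) : (Pi.single 1 1 : Fin 3 → F) ᵥ* Wm l a b w
    = (l⁻¹) ^ 2 • (Pi.single 1 1 : Fin 3 → F) + b • (Pi.single 2 1 : Fin 3 → F) := by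
  rw [single_one_vecMul]
  ext j
  fin_cases j <;> simp [Wm, Matrix.row]

lemma Wm_row2 (l a b w : F) : (Pi.single 2 1 : Fin 3 → F) ᵥ* Wm l a b w
    = l • (Pi.single 2 1 : Fin 3 → F) := by
  rw [single_one_vecMul]
  ext j
  fin_cases j <;> simp [Wm, Matrix.row]

variable {H : Subgroup (Matrix.SpecialLinearGroup (Fin 3) F)}

/-- action of an element of `H` having `e_0` as an eigenvector. -/
lemma Psi_eigen {k : Matrix.SpecialLinearGroup (Fin 3) F} (hk : k ∈ H) {l : F} (hl : l ≠ 0)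
    (hk0 : (k : Matrix (Fin 3) (Fin 3) F) *ᵥ Pi.single 0 1 = l • (Pi.single 0 1 : Fin 3 → F))
    {ψ : Fin 3 → F} (hψ : ψ ∈ Psi H 0) :
    l⁻¹ • (ψ ᵥ* (k : Matrix (Fin 3) (Fin 3) F)) ∈ Psi H 0 := by
  refine ⟨?_, ?_⟩
  · have : (ψ ᵥ* (k : Matrix (Fin 3) (Fin 3) F)) ⬝ᵥ Pi.single 0 1 = 0 := by
      rw [← dotProduct_mulVec, hk0]; simp [hψ.1]
    have h2 : (ψ ᵥ* (k : Matrix (Fin 3) (Fin 3) F)) 0 = 0 := by simpa using this
    simp [h2]
  · rw [← InH.smul_comm]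
    apply hψ.2.conj_inv hk
    rw [mulVec_smul, hk0, smul_smul, inv_mul_cancel₀ hl, one_smul]

/-- `A A ⊆ E₁`. -/
lemma Psi3_step (hL : Lsl F 3 ∈ H) {a s : F}
    (ha : a • (Pi.single 2 1 : Fin 3 → F) ∈ Psi H 0)
    (hs : s • (Pi.single 2 1 : Fin 3 → F) ∈ Psi H 0) :
    (a * s) • ((Pi.single 2 1 : Fin 3 → F) - Pi.single 1 1) ∈ Psi H 0 := by
  have e1 : (s • (Pi.single 2 1 : Fin 3 → F)) ᵥ* Lmat F 3
      = s • ((Pi.single 2 1 : Fin 3 → F) - Pi.single 1 1) := by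
    rw [smul_vecMul, Lmat_row 1 2 rfl]
  have h2 : InH H (fun _ => 1) (s • ((Pi.single 2 1 : Fin 3 → F) - Pi.single 1 1)) := by
    rw [← e1]; exact hs.2.conj_inv hL (Lmat_mulVec_one 0 rfl)
  have h3 := InH.comm ha.2 h2 (by simp) (by simp [dotProduct, Fin.sum_univ_three]) (by simp)
  have h4 : (a • (Pi.single 2 (1 : F) : Fin 3 → F)) ⬝ᵥ (fun _ => (1 : F)) = a := by simp
  rw [h4, smul_smul] at h3
  exact ⟨by simp, h3⟩

/-- `B₁ E₁ ⊆ A`. -/
lemma Psi3_comm (hL : Lsl F 3 ∈ H) {s s' : F}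
    (hs : s • (Pi.single 1 1 : Fin 3 → F) ∈ Psi H 0)
    (hs' : s' • ((Pi.single 2 1 : Fin 3 → F) - Pi.single 1 1) ∈ Psi H 0) :
    (s * s') • (Pi.single 2 1 : Fin 3 → F) ∈ Psi H 0 := by
  have e1 : (s' • (Pi.single 2 1 : Fin 3 → F)) ᵥ* ((Lsl F 3 : Matrix.SpecialLinearGroup (Fin 3) F) :
      Matrix (Fin 3) (Fin 3) F) = s' • ((Pi.single 2 1 : Fin 3 → F) - Pi.single 1 1) := by
    rw [Lsl_coe, smul_vecMul, Lmat_row 1 2 rfl]
  have h2 : InH H ((Pi.single 0 1 : Fin 3 → F) - Pi.single 1 1)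
      (s' • (Pi.single 2 1 : Fin 3 → F)) := by
    have := InH.conj (φ := s' • (Pi.single 2 1 : Fin 3 → F)) hL (by rw [e1]; exact hs'.2)
    rwa [Lsl_coe, Lmat_col 0 1 rfl] at this
  have h3 := InH.comm hs.2 h2 (by simp) (by simp [dotProduct, Fin.sum_univ_three]) (by simp)
  have h4 : (s • (Pi.single 1 (1 : F) : Fin 3 → F)) ⬝ᵥ
      ((Pi.single 0 1 : Fin 3 → F) - Pi.single 1 1) = -s := by
    simp [dotProduct, Fin.sum_univ_three]
  rw [h4, smul_smul] at h3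
  have h5 : (-s * s') • (Pi.single 2 1 : Fin 3 → F) ∈ Psi H 0 := ⟨by simp, h3⟩
  have := (Psi H 0).neg_mem h5
  rwa [← neg_smul, neg_mul, neg_neg] at this

lemma Wm_pow (l a w : F) (hl : l ≠ 0) (hne : l - (l⁻¹) ^ 2 ≠ 0) (k : ℕ) :
    Wm l a 0 w ^ k = !![l ^ k, a * ((l ^ k - ((l⁻¹) ^ 2) ^ k) / (l - (l⁻¹) ^ 2)), k * l ^ k * (w / l);
      0, ((l⁻¹) ^ 2) ^ k, 0; 0, 0, l ^ k] := by
  induction k with
  | zero =>
    ext i j
    fin_cases i <;> fin_cases j <;> simp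
  | succ k ih =>
    rw [pow_succ, ih, Wm]
    generalize (l⁻¹) ^ 2 = μ at *
    ext i j
    fin_cases i <;> fin_cases j <;>
      simp [Matrix.mul_apply, Fin.sum_univ_three, pow_succ] <;> field_simp <;> ring

lemma root_eq (c : F) : (!![1, 0, c; 0, 1, 0; 0, 0, 1] : Matrix (Fin 3) (Fin 3) F)
    = 1 + vecMulVec (Pi.single 0 1) (c • (Pi.single 2 1 : Fin 3 → F)) := by
  ext i j
  fin_cases i <;> fin_cases j <;> simp [vecMulVec_apply]

lemma Wm_pow_card [Fintype F] (l a w : F) (hl : l ≠ 0) (hne : l - (l⁻¹) ^ 2 ≠ 0) :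
    Wm l a 0 w ^ (Fintype.card F - 1)
      = 1 + vecMulVec (Pi.single 0 1) ((-(w / l)) • (Pi.single 2 1 : Fin 3 → F)) := by
  have h1 : l ^ (Fintype.card F - 1) = 1 := FiniteField.pow_card_sub_one_eq_one l hl
  have h2 : ((l⁻¹) ^ 2) ^ (Fintype.card F - 1) = 1 :=
    FiniteField.pow_card_sub_one_eq_one _ (pow_ne_zero _ (inv_ne_zero hl))
  have h3 : ((Fintype.card F - 1 : ℕ) : F) = -1 := by
    rw [Nat.cast_sub Fintype.card_pos, Nat.cast_card_eq_zero]; simp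
  rw [Wm_pow l a w hl hne, h1, h2, h3, ← root_eq]
  simp

/-- the special case `l ^ 3 = 1` in characteristic two. -/
lemma Wm_pow_six (l : F) (h2 : (2 : F) = 0) (h3 : l ^ 3 = 1) :
    Wm l l 1 (l ^ 2) ^ 6
      = 1 + vecMulVec (Pi.single 0 1) ((l ^ 2) • (Pi.single 2 1 : Fin 3 → F)) := by
  have hl : l ≠ 0 := fun h => by rw [h] at h3; simp at h3
  have hμ : (l⁻¹) ^ 2 = l := by
    field_simp
    rw [← h3]
  have e2 : Wm l l 1 (l ^ 2) * Wm l l 1 (l ^ 2)
      = !![l ^ 2, 0, l; 0, l ^ 2, 0; 0, 0, l ^ 2] := by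
    rw [Wm, hμ]
    ext i j
    fin_cases i <;> fin_cases j <;> simp [Matrix.mul_apply, Fin.sum_univ_three]
    · ring
    · linear_combination (l ^ 2) * h2
    · linear_combination (l ^ 3) * h2
    · ring
    · linear_combination l * h2
    · ring
  have e6 : (!![l ^ 2, 0, l; 0, l ^ 2, 0; 0, 0, l ^ 2] : Matrix (Fin 3) (Fin 3) F) ^ 3
      = !![1, 0, l ^ 2; 0, 1, 0; 0, 0, 1] := by
    rw [pow_succ, pow_two]
    ext i j
    fin_cases i <;> fin_cases j <;> simp [Matrix.mul_apply, Fin.sum_univ_three]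
    · linear_combination (l ^ 3 + 1) * h3
    · linear_combination (3 * l ^ 2) * h3 + l ^ 2 * h2
    · linear_combination (l ^ 3 + 1) * h3
    · linear_combination (l ^ 3 + 1) * h3
  rw [show (6 : ℕ) = 2 * 3 from rfl, pow_mul, pow_two, e2, e6, root_eq]


lemma subring_mem_of_cube [Fintype F] (R : Subring F) {ζ : Fˣ}
    (hζ : ∀ x : Fˣ, x ∈ Subgroup.zpowers ζ) (h3 : (ζ : F) ^ 3 ∈ R) (hne : (ζ : F) ^ 3 ≠ 1) (x : F) :
    x ∈ R := by
  classical
  have hinv : ∀ y ∈ R, y⁻¹ ∈ R := by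
    intro y hy
    by_cases h0 : y = 0
    · rw [h0, _root_.inv_zero]; exact R.zero_mem
    · have h1 := FiniteField.pow_card_sub_one_eq_one y h0
      have h2 : 2 ≤ Fintype.card F := Fintype.one_lt_card
      have h3 : y⁻¹ = y ^ (Fintype.card F - 2) := by
        apply inv_eq_of_mul_eq_one_right
        rw [← pow_succ', show Fintype.card F - 2 + 1 = Fintype.card F - 1 by omega, h1]
      rw [h3]; exact R.pow_mem hy _
  let K : Subfield F := { R with inv_mem' := hinv }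
  have hKR : ∀ y, y ∈ K ↔ y ∈ R := fun y => Iff.rfl
  have hcard := Module.card_eq_pow_finrank (K := K) (V := F)
  set r := Fintype.card K with hr
  set d := Module.finrank K F with hd
  have hr2 : 2 ≤ r := Fintype.one_lt_card
  have hq2 : 2 ≤ Fintype.card F := Fintype.one_lt_card
  have hz : ((⟨(ζ : F) ^ 3, h3⟩ : K)) ^ (r - 1) = 1 :=
    FiniteField.pow_card_sub_one_eq_one _ (by
      intro h
      have := congrArg Subtype.val h
      simp at this)
  have hz' : ζ ^ (3 * (r - 1)) = 1 := by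
    have := congrArg Subtype.val hz
    apply Units.ext
    rw [pow_mul]
    simpa using this
  have hord : orderOf ζ = Fintype.card F - 1 := by
    rw [orderOf_eq_card_of_forall_mem_zpowers hζ, Nat.card_eq_fintype_card, Fintype.card_units]
  have hdvd : Fintype.card F - 1 ∣ 3 * (r - 1) := by
    rw [← hord]; exact orderOf_dvd_of_pow_eq_one hz'
  have hle : Fintype.card F - 1 ≤ 3 * (r - 1) := Nat.le_of_dvd (by omega) hdvd
  have hd1 : d = 1 := by
    by_contra hd1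
    rcases Nat.lt_or_ge d 2 with h | h
    · have : d = 0 := by omega
      rw [this, pow_zero] at hcard
      omega
    · have h4 : r ^ 2 ≤ Fintype.card F := by
        rw [hcard]; exact Nat.pow_le_pow_right (by omega) h
      have h6 : Fintype.card F + 2 ≤ 3 * r := by omega
      have h5 : r = 2 := by
        by_contra h7
        have h8 : 3 ≤ r := by omega
        have h9 : 3 * r ≤ r ^ 2 := by rw [pow_two]; exact Nat.mul_le_mul_right r h8
        omega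
      rw [h5] at hz'
      apply hne
      have := congrArg Units.val hz'
      simpa using this
  rw [hd1, pow_one] at hcard
  have htop : R.toAddSubgroup = ⊤ := by
    apply AddSubgroup.eq_top_of_card_eq
    rw [Nat.card_eq_fintype_card, Nat.card_eq_fintype_card, hcard, hr]
    exact Fintype.card_congr (Equiv.refl _)
  have : x ∈ R.toAddSubgroup := by rw [htop]; trivial
  exact this

lemma exists_g (l a b w : F) (hl : l ≠ 0) (hb : b = 2 * l + (l⁻¹) ^ 2 - 3 - a)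
    (hw : w = l ^ 2 * (a * b - 3 + l⁻¹ - l ^ 2 + 3 * l)) :
    ∃ g : Matrix.SpecialLinearGroup (Fin 3) F, ∀ H : Subgroup (Matrix.SpecialLinearGroup (Fin 3) F),
      Lsl F 3 ∈ H → g * Lsl F 3 * g⁻¹ ∈ H →
      ∃ k ∈ H, (k : Matrix (Fin 3) (Fin 3) F) = Wm l a b w := by
  refine ⟨⟨gm l a w, gm_det l a w hl⟩, fun H hL hv => ?_⟩
  set g : Matrix.SpecialLinearGroup (Fin 3) F := ⟨gm l a w, gm_det l a w hl⟩ with hg
  refine ⟨g * Lsl F 3 * (Lsl F 3 * g)⁻¹, ?_, ?_⟩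
  · have : g * Lsl F 3 * (Lsl F 3 * g)⁻¹ = g * Lsl F 3 * g⁻¹ * (Lsl F 3)⁻¹ := by group
    rw [this]
    exact H.mul_mem hv (H.inv_mem hL)
  · apply eq_coe_of_mul_eq
    rw [Matrix.SpecialLinearGroup.coe_mul, Matrix.SpecialLinearGroup.coe_mul, Lsl_coe]
    exact conj_identity l a b w hl hb hw

/-- the additive group of parameters of `e_1`. -/
def B1 (H : Subgroup (Matrix.SpecialLinearGroup (Fin 3) F)) : AddSubgroup F where
  carrier := {s | s • (Pi.single 1 1 : Fin 3 → F) ∈ Psi H 0}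
  zero_mem' := by
    show (0 : F) • (Pi.single 1 1 : Fin 3 → F) ∈ Psi H 0
    rw [zero_smul]; exact (Psi H 0).zero_mem
  add_mem' := fun {x y} hx hy => by
    show (x + y) • (Pi.single 1 1 : Fin 3 → F) ∈ Psi H 0
    rw [add_smul]; exact (Psi H 0).add_mem hx hy
  neg_mem' := fun {x} hx => by
    show (-x) • (Pi.single 1 1 : Fin 3 → F) ∈ Psi H 0
    rw [neg_smul]; exact (Psi H 0).neg_mem hx

/-- stabiliser ring of an additive subgroup. -/
def stabRing (B : AddSubgroup F) : Subring F where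
  carrier := {x | ∀ b ∈ B, x * b ∈ B}
  mul_mem' := fun {x y} hx hy b hb => by rw [mul_assoc]; exact hx _ (hy _ hb)
  one_mem' := fun b hb => by rwa [one_mul]
  add_mem' := fun {x y} hx hy b hb => by rw [add_mul]; exact B.add_mem (hx b hb) (hy b hb)
  zero_mem' := fun b _ => by rw [zero_mul]; exact B.zero_mem
  neg_mem' := fun {x} hx b hb => by rw [neg_mul]; exact B.neg_mem (hx b hb)

theorem main_case [Fintype F] {ζ : Fˣ} (hζ : ∀ x : Fˣ, x ∈ Subgroup.zpowers ζ)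
    (h3 : (ζ : F) ^ 3 ≠ 1) (hL : Lsl F 3 ∈ H) {k : Matrix.SpecialLinearGroup (Fin 3) F}
    (hk : k ∈ H) {a w : F} (hw : w ≠ 0)
    (hkm : (k : Matrix (Fin 3) (Fin 3) F) = Wm ((ζ : F)⁻¹) a 0 w) : H = ⊤ := by
  classical
  obtain ⟨z, hz⟩ : ∃ z : F, z = (ζ : F) := ⟨_, rfl⟩
  rw [← hz] at h3 hkm
  have hz0 : z ≠ 0 := by rw [hz]; exact ζ.ne_zero
  have hl : z⁻¹ ≠ 0 := inv_ne_zero hz0
  have hne : z⁻¹ - ((z⁻¹)⁻¹) ^ 2 ≠ 0 := by
    rw [inv_inv]
    intro h
    apply h3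
    field_simp at h
    linear_combination -h
  -- the first transvection
  obtain ⟨c, hc⟩ : ∃ c : F, c = -(w / z⁻¹) := ⟨_, rfl⟩
  have hc0 : c ≠ 0 := by rw [hc]; exact neg_ne_zero.2 (div_ne_zero hw hl)
  have hA0 : c • (Pi.single 2 1 : Fin 3 → F) ∈ Psi H 0 := by
    refine ⟨by simp, k ^ (Fintype.card F - 1), H.pow_mem hk _, ?_⟩
    rw [Matrix.SpecialLinearGroup.coe_pow, hkm, Wm_pow_card _ _ _ hl hne, hc]
  have hE : (c * c) • ((Pi.single 2 1 : Fin 3 → F) - Pi.single 1 1) ∈ Psi H 0 :=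
    Psi3_step hL hA0 hA0
  have hk0 : (k : Matrix (Fin 3) (Fin 3) F) *ᵥ Pi.single 0 1
      = z⁻¹ • (Pi.single 0 1 : Fin 3 → F) := by rw [hkm, Wm_col0]
  -- `B₁` is stable under `z ^ 3`
  have hstab : z ^ 3 ∈ stabRing (B1 H) := by
    intro s hs
    have h1 := Psi_eigen hk hl hk0 hs
    rw [hkm, smul_vecMul, Wm_row1, zero_smul, add_zero, smul_smul, smul_smul, inv_inv] at h1
    show (z ^ 3 * s) • (Pi.single 1 1 : Fin 3 → F) ∈ Psi H 0
    convert h1 using 2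
    ring
  have hall : ∀ x : F, x ∈ stabRing (B1 H) := fun x =>
    subring_mem_of_cube (stabRing (B1 H)) hζ (by rw [← hz]; exact hstab) (by rw [← hz]; exact h3) x
  have hB0 : (c * c * (z ^ 3 - 1)) ∈ B1 H := by
    have h1 := Psi_eigen hk hl hk0 hE
    rw [hkm, smul_vecMul, sub_vecMul, Wm_row1, Wm_row2, zero_smul, add_zero, inv_inv] at h1
    have h2 := (Psi H 0).sub_mem hE h1
    show (c * c * (z ^ 3 - 1)) • (Pi.single 1 1 : Fin 3 → F) ∈ Psi H 0
    convert h2 using 1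
    ext j
    fin_cases j <;> simp <;> field_simp <;> ring
  have hB : ∀ y : F, y • (Pi.single 1 1 : Fin 3 → F) ∈ Psi H 0 := by
    intro y
    have hne2 : c * c * (z ^ 3 - 1) ≠ 0 :=
      mul_ne_zero (mul_ne_zero hc0 hc0) (sub_ne_zero.2 h3)
    have := hall (y * (c * c * (z ^ 3 - 1))⁻¹) _ hB0
    rwa [inv_mul_cancel_right₀ hne2] at this
  apply eq_top_of_root (le_refl 3) hL (z := 0) (l := 2) rfl rfl
  intro t
  have := Psi3_comm hL (hB (t * (c * c)⁻¹)) hE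
  rwa [inv_mul_cancel_right₀ (mul_ne_zero hc0 hc0)] at this

theorem special_case [Fintype F] {ζ : Fˣ} (hζ : ∀ x : Fˣ, x ∈ Subgroup.zpowers ζ)
    (h3 : (ζ : F) ^ 3 = 1) (h2 : (2 : F) = 0) (hL : Lsl F 3 ∈ H)
    {k : Matrix.SpecialLinearGroup (Fin 3) F} (hk : k ∈ H)
    (hkm : (k : Matrix (Fin 3) (Fin 3) F) = Wm (ζ : F) (ζ : F) 1 ((ζ : F) ^ 2)) : H = ⊤ := by
  classical
  obtain ⟨z, hz⟩ : ∃ z : F, z = (ζ : F) := ⟨_, rfl⟩
  rw [← hz] at h3 hkm
  have hz0 : z ≠ 0 := by rw [hz]; exact ζ.ne_zero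
  have hμ : (z⁻¹) ^ 2 = z := by
    field_simp
    rw [← h3]
  have hinv : z⁻¹ = z ^ 2 := by
    field_simp
    rw [← h3]
  have hA0 : (z ^ 2) • (Pi.single 2 1 : Fin 3 → F) ∈ Psi H 0 := by
    refine ⟨by simp, k ^ 6, H.pow_mem hk _, ?_⟩
    rw [Matrix.SpecialLinearGroup.coe_pow, hkm, Wm_pow_six z h2 h3]
  have hk0 : (k : Matrix (Fin 3) (Fin 3) F) *ᵥ Pi.single 0 1
      = z • (Pi.single 0 1 : Fin 3 → F) := by rw [hkm, Wm_col0]
  -- `A A z² ⊆ A`
  have hstep : ∀ s s' : F, s • (Pi.single 2 1 : Fin 3 → F) ∈ Psi H 0 →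
      s' • (Pi.single 2 1 : Fin 3 → F) ∈ Psi H 0 →
      (s * s' * z ^ 2) • (Pi.single 2 1 : Fin 3 → F) ∈ Psi H 0 := by
    intro s s' hs hs'
    have hE := Psi3_step hL hs hs'
    have h1 := Psi_eigen hk hz0 hk0 hE
    rw [hkm, smul_vecMul, sub_vecMul, Wm_row1, Wm_row2, hμ, hinv] at h1
    have h4 := (Psi H 0).sub_mem hE h1
    convert h4 using 1
    ext j
    fin_cases j <;> simp
    · linear_combination (-(s * s')) * h3
    · linear_combination (s * s') * h3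
  have hA1 : (1 : F) • (Pi.single 2 1 : Fin 3 → F) ∈ Psi H 0 := by
    have := hstep _ _ hA0 hA0
    convert this using 2
    linear_combination (-(z ^ 3 + 1)) * h3
  have hA2 : z • (Pi.single 2 1 : Fin 3 → F) ∈ Psi H 0 := by
    have := hstep _ _ hA1 hA0
    convert this using 2
    linear_combination (-z) * h3
  apply eq_top_of_root (le_refl 3) hL (z := 0) (l := 2) rfl rfl
  intro t
  by_cases ht : t = 0
  · rw [ht, zero_smul]; exact (Psi H 0).zero_mem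
  · have hx' := hζ (Units.mk0 t ht)
    rw [← mem_powers_iff_mem_zpowers] at hx'
    obtain ⟨i, hi⟩ := hx'
    have hti : z ^ i = t := by
      have := congrArg Units.val hi
      rw [hz]
      simpa using this
    have hmod : z ^ i = z ^ (i % 3) := by
      conv_lhs => rw [← Nat.div_add_mod i 3, pow_add, pow_mul, h3, one_pow, one_mul]
    rw [← hti, hmod]
    have h5 : i % 3 < 3 := Nat.mod_lt _ (by norm_num)
    interval_cases (i % 3)
    · rw [pow_zero]; exact hA1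
    · rw [pow_one]; exact hA2
    · exact hA0

/-- `SL_3(F)` is generated by two conjugates of the Jordan block. -/
theorem exists_conj_closure_eq_top3 [Fintype F] :
    ∃ g : Matrix.SpecialLinearGroup (Fin 3) F,
      Subgroup.closure ({Lsl F 3, g * Lsl F 3 * g⁻¹} :
        Set (Matrix.SpecialLinearGroup (Fin 3) F)) = ⊤ := by
  classical
  obtain ⟨ζ, hζ⟩ := IsCyclic.exists_generator (α := Fˣ)
  have hz0 : (ζ : F) ≠ 0 := ζ.ne_zero
  by_cases h3 : (ζ : F) ^ 3 = 1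
  · -- the fields with two or four elements
    have h2 : (2 : F) = 0 := by
      have hord : orderOf ζ = Fintype.card F - 1 := by
        rw [orderOf_eq_card_of_forall_mem_zpowers hζ, Nat.card_eq_fintype_card, Fintype.card_units]
      have hdvd : Fintype.card F - 1 ∣ 3 := by
        rw [← hord]
        apply orderOf_dvd_of_pow_eq_one
        apply Units.ext
        simpa using h3
      have hq2 : 2 ≤ Fintype.card F := Fintype.one_lt_card
      have hcases : Fintype.card F - 1 = 1 ∨ Fintype.card F - 1 = 3 :=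
        (Nat.dvd_prime Nat.prime_three).1 hdvd
      have hcast : ((Fintype.card F : ℕ) : F) = 0 := Nat.cast_card_eq_zero F
      rcases hcases with h | h
      · have : Fintype.card F = 2 := by omega
        rw [this] at hcast
        exact_mod_cast hcast
      · have : Fintype.card F = 4 := by omega
        rw [this] at hcast
        have h4 : (2 : F) * 2 = 0 := by
          have : ((4 : ℕ) : F) = 2 * 2 := by norm_num
          rw [← this]; exact hcast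
        exact mul_self_eq_zero.1 h4
    have hμ : ((ζ : F)⁻¹) ^ 2 = (ζ : F) := by
      field_simp
      rw [← h3]
    have hinv : (ζ : F)⁻¹ = (ζ : F) ^ 2 := by
      field_simp
      rw [← h3]
    obtain ⟨g, hg⟩ := exists_g (ζ : F) (ζ : F) 1 ((ζ : F) ^ 2) hz0
      (by rw [hμ]; linear_combination (2 - (ζ : F)) * h2)
      (by rw [hinv]; linear_combination (-((ζ : F) ^ 2) * (2 * (ζ : F) - 2)) * h2)
    refine ⟨g, ?_⟩
    obtain ⟨k, hk, hkm⟩ := hg (Subgroup.closure ({Lsl F 3, g * Lsl F 3 * g⁻¹} :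
      Set (Matrix.SpecialLinearGroup (Fin 3) F))) (Subgroup.subset_closure (by simp))
      (Subgroup.subset_closure (by simp))
    exact special_case hζ h3 h2 (Subgroup.subset_closure (by simp)) hk hkm
  · have hl : (ζ : F)⁻¹ ≠ 0 := inv_ne_zero hz0
    obtain ⟨g, hg⟩ := exists_g ((ζ : F)⁻¹) (2 * (ζ : F)⁻¹ + (((ζ : F)⁻¹)⁻¹) ^ 2 - 3) 0
      (((ζ : F)⁻¹) ^ 2 * ((2 * (ζ : F)⁻¹ + (((ζ : F)⁻¹)⁻¹) ^ 2 - 3) * 0 - 3 + ((ζ : F)⁻¹)⁻¹
        - ((ζ : F)⁻¹) ^ 2 + 3 * (ζ : F)⁻¹)) hl (by ring) rfl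
    refine ⟨g, ?_⟩
    obtain ⟨k, hk, hkm⟩ := hg (Subgroup.closure ({Lsl F 3, g * Lsl F 3 * g⁻¹} :
      Set (Matrix.SpecialLinearGroup (Fin 3) F))) (Subgroup.subset_closure (by simp))
      (Subgroup.subset_closure (by simp))
    refine main_case hζ h3 (Subgroup.subset_closure (by simp)) hk ?_ hkm
    -- `w ≠ 0`
    have h1 : (ζ : F) ≠ 1 := fun h => h3 (by rw [h]; simp)
    have e : ((ζ : F)⁻¹) ^ 2 * ((2 * (ζ : F)⁻¹ + (((ζ : F)⁻¹)⁻¹) ^ 2 - 3) * 0 - 3 + ((ζ : F)⁻¹)⁻¹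
        - ((ζ : F)⁻¹) ^ 2 + 3 * (ζ : F)⁻¹) = ((ζ : F) - 1) ^ 3 * ((ζ : F)⁻¹) ^ 4 := by
      field_simp
      ring
    rw [e]
    exact mul_ne_zero (pow_ne_zero _ (sub_ne_zero.2 h1)) (pow_ne_zero _ hl)

end three

end Cfsg.Agent.Lib.Helper42.RegUnip
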