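import Mathlib

set_option autoImplicit false

namespace Cfsg.Agent.Lib.Helper42

/-! ### Facts on `S₆` -/

set_option maxRecDepth 100000 in
theorem P1 : ∀ σ : Equiv.Perm (Fin 6), Equiv.Perm.sign σ = 1 → σ^4 = 1 ∨ σ^3 = 1 ∨ σ^5 = 1 := by decide +kernel

set_option maxRecDepth 100000 in
theorem P3a : (Finset.univ.filter (fun σ : Equiv.Perm (Fin 6) => σ^3 = 1)).card = 81 := by decide +kernel

set_option maxRecDepth 100000 in
theorem P5a : (Finset.univ.filter (fun σ : Equiv.Perm (Fin 6) => σ^5 = 1)).card = 145 := by decide +kernel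

lemma ncard_order (k c : ℕ) (hk : 1 < k)
    (h : (Finset.univ.filter (fun σ : Equiv.Perm (Fin 6) => σ^k = 1)).card = c + 1) :
    ({σ : Equiv.Perm (Fin 6) | orderOf σ = k} : Set _).ncard ≤ c := by
  classical
  have h1 : ({σ : Equiv.Perm (Fin 6) | orderOf σ = k} : Set _) ⊆
      ((Finset.univ.filter (fun σ : Equiv.Perm (Fin 6) => σ^k = 1)).erase 1 : Finset _) := by
    intro σ hσ
    simp only [Set.mem_ofPred_eq] at hσ
    simp only [Finset.coe_erase, Finset.coe_filter, Finset.mem_univ, true_and, Set.mem_sdiff, Set.mem_ofPred_eq,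
      Set.mem_singleton_iff]
    refine ⟨by rw [← hσ]; exact pow_orderOf_eq_one σ, ?_⟩
    rintro rfl
    rw [orderOf_one] at hσ
    omega
  calc ({σ : Equiv.Perm (Fin 6) | orderOf σ = k} : Set _).ncard
      ≤ (((Finset.univ.filter (fun σ : Equiv.Perm (Fin 6) => σ^k = 1)).erase 1 : Finset _) : Set _).ncard :=
        Set.ncard_le_ncard h1 (Finset.finite_toSet _)
    _ = ((Finset.univ.filter (fun σ : Equiv.Perm (Fin 6) => σ^k = 1)).erase 1).card := Set.ncard_coe_finset _
    _ = c := by
        rw [Finset.card_erase_of_mem (by simp), h]; rfl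

lemma card_centralizer_replicate (σ : Equiv.Perm (Fin 6)) (m p : ℕ) (h : σ.cycleType = Multiset.replicate (m+1) p) :
    Nat.card (Subgroup.centralizer {σ}) = (6 - (m+1) * p).factorial * p ^ (m+1) * (m+1).factorial := by
  rw [Equiv.Perm.nat_card_centralizer, h, Multiset.toFinset_replicate, if_neg (Nat.succ_ne_zero m),
    Finset.prod_singleton, Multiset.count_replicate_self, Multiset.sum_replicate, Multiset.prod_replicate]
  simp

lemma sum_le (σ : Equiv.Perm (Fin 6)) : σ.cycleType.sum ≤ 6 := by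
  rw [Equiv.Perm.sum_cycleType]
  exact (Finset.card_le_univ _).trans (by simp)

lemma C2 (σ : Equiv.Perm (Fin 6)) (h : orderOf σ = 2) (hs : Equiv.Perm.sign σ = 1) :
    Nat.card (Subgroup.centralizer {σ}) = 16 := by
  obtain ⟨n, hn⟩ := Equiv.Perm.cycleType_prime_order (σ := σ) (by rw [h]; exact Nat.prime_two)
  rw [h] at hn
  have h1 := sum_le σ
  rw [hn] at h1
  simp at h1
  have h2 := Equiv.Perm.sign_of_cycleType σ
  rw [hs, hn] at h2
  simp at h2
  have hn' : n = 0 ∨ n = 1 ∨ n = 2 := by omega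
  rw [card_centralizer_replicate σ n 2 hn]
  rcases hn' with rfl | rfl | rfl
  · revert h2; decide
  · decide
  · revert h2; decide

lemma C3 (σ : Equiv.Perm (Fin 6)) (h : orderOf σ = 3) :
    Nat.card (Subgroup.centralizer {σ}) = 18 := by
  obtain ⟨n, hn⟩ := Equiv.Perm.cycleType_prime_order (σ := σ) (by rw [h]; exact Nat.prime_three)
  rw [h] at hn
  have h1 := sum_le σ
  rw [hn] at h1
  simp at h1
  have hn' : n = 0 ∨ n = 1 := by omega
  rw [card_centralizer_replicate σ n 3 hn]
  rcases hn' with rfl | rfl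
  · decide
  · decide

lemma C5 (σ : Equiv.Perm (Fin 6)) (h : orderOf σ = 5) :
    Nat.card (Subgroup.centralizer {σ}) = 5 := by
  obtain ⟨n, hn⟩ := Equiv.Perm.cycleType_prime_order (σ := σ) (by rw [h]; exact Nat.prime_five)
  rw [h] at hn
  have h1 := sum_le σ
  rw [hn] at h1
  simp at h1
  have hn' : n = 0 := by omega
  rw [card_centralizer_replicate σ n 5 hn]
  subst hn'
  decide

end Cfsg.Agent.Lib.Helper42
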