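import Mathlib
import Cfsg.Agent.Lib.Helper99.PpdIrred

/-!
Irreducible endomorphisms over finite fields: the centraliser algebra is a finite field `K`,
and the determinant is the norm.
-/

set_option autoImplicit false

namespace Cfsg.Agent.Lib.Helper42

open Module Cfsg.Agent.Lib.Helper99

section
universe u v
variable {F : Type u} {V : Type v} [Field F] [Fintype F] [AddCommGroup V] [Module F V]
  [FiniteDimensional F V] [Nontrivial V]

/-- field model of the centraliser algebra of an irreducible endomorphism -/
theorem exists_field_model {X : Module.End F V} (hX : ActsIrred X) :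
    ∃ (K : Type v) (_ : Field K) (_ : Algebra F K) (_ : Finite K) (φ : K →ₐ[F] Module.End F V),
      Function.Injective φ ∧ (∀ g, Commute g X → g ∈ Set.range φ) ∧
      (∀ z, LinearMap.det (φ z) = Algebra.norm F z) ∧ finrank F K = finrank F V := by
  classical
  let _ := adjoinCommRing X
  have := noZeroDivisors_adjoin hX
  have : IsDomain (Algebra.adjoin F {X}) := NoZeroDivisors.to_isDomain _
  have : Finite (Module.End F V) := Module.finite_of_finite F
  have : Finite (Algebra.adjoin F {X}) := Finite.of_injective _ Subtype.val_injective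
  have : Fintype (Algebra.adjoin F {X}) := Fintype.ofFinite _
  obtain ⟨v, hv⟩ := exists_ne (0 : V)
  refine ⟨Algebra.adjoin F {X}, Fintype.fieldOfDomain _, (Algebra.adjoin F {X}).algebra, inferInstance,
    (Algebra.adjoin F {X}).val, Subtype.val_injective, ?_, ?_, finrank_adjoin hX⟩
  · intro g hg
    exact ⟨⟨g, mem_adjoin_of_commute hX hg⟩, rfl⟩
  · intro z
    rw [Algebra.norm_apply]
    rw [← LinearMap.det_conj (Algebra.lmul F (Algebra.adjoin F {X}) z) (evEquiv hX hv)]
    congr 1
    ext w
    obtain ⟨p, rfl⟩ := (evEquiv hX hv).surjective w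
    simp only [LinearMap.comp_apply, LinearEquiv.coe_coe, LinearEquiv.symm_apply_apply]
    rfl

theorem pow_eq_one_of_det_eq_one {X : Module.End F V} (hX : ActsIrred X) (g : Module.End F V)
    (hg : Commute g X) (hdet : LinearMap.det g = 1) :
    g ^ ((Fintype.card F ^ finrank F V - 1) / (Fintype.card F - 1)) = 1 := by
  obtain ⟨K, _, _, _, φ, hφ, hsurj, hnorm, hfin⟩ := exists_field_model hX
  obtain ⟨z, rfl⟩ := hsurj g hg
  rw [hnorm] at hdet
  have h1 := FiniteField.algebraMap_norm_eq_pow (K := F) (K' := K) (x := z)
  rw [hdet, map_one, Module.natCard_eq_pow_finrank (K := F) (V := K), hfin,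
    Nat.card_eq_fintype_card] at h1
  rw [← map_pow, ← h1, map_one]

theorem scalar_of_pow_card_eq {X : Module.End F V} (hX : ActsIrred X) (g : Module.End F V)
    (hg : Commute g X) (hpow : g ^ Fintype.card F = g) :
    ∃ a : F, g = algebraMap F (Module.End F V) a := by
  classical
  obtain ⟨K, _, _, _, φ, hφ, hsurj, hnorm, hfin⟩ := exists_field_model hX
  obtain ⟨x, rfl⟩ := hsurj g hg
  have hx : x ^ Fintype.card F = x := hφ (by rw [map_pow, hpow])
  suffices h : ∃ a : F, algebraMap F K a = x by
    obtain ⟨a, rfl⟩ := h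
    exact ⟨a, by simp⟩
  by_contra hcon
  push Not at hcon
  have hne : (Polynomial.X ^ Fintype.card F - Polynomial.X : Polynomial K) ≠ 0 :=
    FiniteField.X_pow_card_sub_X_ne_zero K Fintype.one_lt_card
  apply hne
  apply Polynomial.eq_zero_of_natDegree_lt_card_of_eval_eq_zero' _
    (insert x (Finset.univ.image (algebraMap F K)))
  · intro y hy
    rw [Finset.mem_insert] at hy
    rcases hy with rfl | hy
    · simp [hx]
    · rw [Finset.mem_image] at hy
      obtain ⟨a, _, rfl⟩ := hy
      simp [← map_pow, FiniteField.pow_card]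
  · rw [FiniteField.X_pow_card_sub_X_natDegree_eq K Fintype.one_lt_card, Finset.card_insert_of_notMem,
      Finset.card_image_of_injective _ (algebraMap F K).injective, Finset.card_univ]
    · omega
    · intro h
      rw [Finset.mem_image] at h
      obtain ⟨a, _, ha⟩ := h
      exact hcon a ha

end

section matrix
variable {F : Type*} [Field F] [Fintype F]

/-- matrix version: `x` of ppd order `r`, `g` commuting with `x`. -/
theorem matrix_ppd {n : ℕ} (x : Matrix (Fin n) (Fin n) F) (r : ℕ) [Fact r.Prime] (hx : x ^ r = 1)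
    (hx1 : x ≠ 1) (hord : orderOf ((Fintype.card F : ℕ) : ZMod r) = n) (hn : 0 < n)
    (g : Matrix (Fin n) (Fin n) F) (hg : Commute g x) :
    (g.det = 1 → g ^ ((Fintype.card F ^ n - 1) / (Fintype.card F - 1)) = 1) ∧
    (g ^ Fintype.card F = g → ∃ a : F, g = Matrix.scalar (Fin n) a) := by
  have : NeZero n := ⟨hn.ne'⟩
  have hfr : finrank F (Fin n → F) = n := by simp
  set T := Matrix.toLinAlgEquiv' (R := F) (n := Fin n) with hT
  have hirr : ActsIrred (T x) := by
    apply actsIrred_of_ppd (T x) r
    · rw [← map_pow, hx, map_one]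
    · intro h
      exact hx1 (T.injective (by rw [h, map_one]))
    · rw [hfr]; exact hord
    · rw [hfr]; exact hn
  have hcomm : Commute (T g) (T x) := hg.map T
  constructor
  · intro hdet
    have h1 := pow_eq_one_of_det_eq_one hirr (T g) hcomm (by
      rw [← hdet]; exact LinearMap.det_toLin' g)
    rw [hfr, ← map_pow] at h1
    exact T.injective (by rw [h1, map_one])
  · intro hpow
    obtain ⟨a, ha⟩ := scalar_of_pow_card_eq hirr (T g) hcomm (by rw [← map_pow, hpow])
    refine ⟨a, T.injective ?_⟩
    have h2 : Matrix.scalar (Fin n) a = algebraMap F (Matrix (Fin n) (Fin n) F) a := rfl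
    rw [ha, h2, AlgEquiv.commutes]

end matrix

end Cfsg.Agent.Lib.Helper42
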