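import Mathlib
import Cfsg.Agent.S0756
import Cfsg.Agent.Lib.Helper44.Gram
import Cfsg.Agent.Lib.Helper44.Sign

/-!
Nondegenerate symmetric bilinear forms of the same odd dimension over a finite field of odd
characteristic are similar.
-/

set_option autoImplicit false
set_option linter.unusedSectionVars false

namespace Cfsg.Agent.Lib.Helper42.SpecO

open Module Cfsg.Agent.Lib.Helper44

variable {F : Type*} [Field F] [Fintype F]

theorem nondeg_of_symm {U : Type*} [AddCommGroup U] [Module F U] (B : LinearMap.BilinForm F U)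
    (hS : B.IsSymm) (h : ∀ x, (∀ y, B x y = 0) → x = 0) : B.Nondegenerate := by
  refine ⟨h, ?_⟩
  intro y hy
  apply h
  intro x
  rw [hS.eq, hy]

/-- the normal form of S0756, with the last entry determined by the discriminant -/
theorem exists_nf {V : Type*} [AddCommGroup V] [Module F V] [FiniteDimensional F V] (h2 : (2 : F) ≠ 0)
    (B : LinearMap.BilinForm F V) (hS : B.IsSymm) (hB : B.Nondegenerate) {n : ℕ}
    (hn : finrank F V = n + 1) (α : F) (hα : ¬ IsSquare α) {κ : Type*} [Fintype κ] [DecidableEq κ]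
    (c : Basis κ F V) (δ : F)
    (hδ : (IsSquare (Matrix.of (fun i j => B (c i) (c j))).det ∧ δ = 1) ∨
      (¬ IsSquare (Matrix.of (fun i j => B (c i) (c j))).det ∧ δ = α)) :
    ∃ b : Basis (Fin (n + 1)) F V, ∀ i j, B (b i) (b j) =
      if i = j then (if i = Fin.last n then δ else 1) else 0 := by
  classical
  obtain ⟨b, hb1, hb2, hb3⟩ := Cfsg.Agent.S0756.result h2 B hS hB hn α hα
  refine ⟨b, ?_⟩
  have hdet : (Matrix.of (fun i j => B (b i) (b j))).det = B (b (Fin.last n)) (b (Fin.last n)) := by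
    have h1 : Matrix.of (fun i j => B (b i) (b j)) = Matrix.diagonal (fun i => B (b i) (b i)) := by
      ext i j
      by_cases hij : i = j
      · subst hij; simp
      · simp [hij, hb1 i j hij]
    rw [h1, Matrix.det_diagonal, Fin.prod_univ_castSucc]
    have h3 : ∀ i : Fin n, B (b i.castSucc) (b i.castSucc) = 1 :=
      fun i => hb2 _ (Fin.castSucc_lt_last i).ne
    simp [h3]
  have hiff := isSquare_gram_det_iff B c b
  rw [hdet] at hiff
  intro i j
  by_cases hij : i = j
  · subst hij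
    rw [if_pos rfl]
    by_cases hi : i = Fin.last n
    · subst hi
      rw [if_pos rfl]
      rcases hb3 with h | h
      · rw [h] at hiff ⊢
        rcases hδ with ⟨-, h3⟩ | ⟨h3, -⟩
        · exact h3.symm
        · exact absurd (hiff.mp ⟨1, by simp⟩) h3
      · rw [h] at hiff ⊢
        rcases hδ with ⟨h3, -⟩ | ⟨-, h3⟩
        · exact absurd (hiff.mpr h3) hα
        · exact h3.symm
    · rw [if_neg hi, hb2 i hi]
  · rw [if_neg hij, hb1 i j hij]

theorem exists_isom_of_sq {V V₀ : Type*} [AddCommGroup V] [Module F V] [FiniteDimensional F V]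
    [AddCommGroup V₀] [Module F V₀] [FiniteDimensional F V₀] (h2 : (2 : F) ≠ 0)
    (B : LinearMap.BilinForm F V) (hS : B.IsSymm) (hB : B.Nondegenerate)
    (B₀ : LinearMap.BilinForm F V₀) (hS₀ : B₀.IsSymm) (hB₀ : B₀.Nondegenerate) {n : ℕ}
    (hn : finrank F V = n + 1) (hn₀ : finrank F V₀ = n + 1)
    {κ κ₀ : Type*} [Fintype κ] [DecidableEq κ] [Fintype κ₀] [DecidableEq κ₀]
    (c : Basis κ F V) (c₀ : Basis κ₀ F V₀)
    (h : IsSquare (Matrix.of (fun i j => B (c i) (c j))).det ↔
      IsSquare (Matrix.of (fun i j => B₀ (c₀ i) (c₀ j))).det) :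
    ∃ T : V ≃ₗ[F] V₀, ∀ x y, B₀ (T x) (T y) = B x y := by
  classical
  obtain ⟨α, hα⟩ := FiniteField.exists_nonsquare (F := F) (ringChar_ne_two_of_two_ne_zero h2)
  obtain ⟨δ, hδ, hδ₀⟩ : ∃ δ : F, ((IsSquare (Matrix.of (fun i j => B (c i) (c j))).det ∧ δ = 1) ∨
      (¬ IsSquare (Matrix.of (fun i j => B (c i) (c j))).det ∧ δ = α)) ∧
      ((IsSquare (Matrix.of (fun i j => B₀ (c₀ i) (c₀ j))).det ∧ δ = 1) ∨
      (¬ IsSquare (Matrix.of (fun i j => B₀ (c₀ i) (c₀ j))).det ∧ δ = α)) := by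
    by_cases hsq : IsSquare (Matrix.of (fun i j => B (c i) (c j))).det
    · exact ⟨1, Or.inl ⟨hsq, rfl⟩, Or.inl ⟨h.mp hsq, rfl⟩⟩
    · exact ⟨α, Or.inr ⟨hsq, rfl⟩, Or.inr ⟨fun hh => hsq (h.mpr hh), rfl⟩⟩
  obtain ⟨b, hb⟩ := exists_nf h2 B hS hB hn α hα c δ hδ
  obtain ⟨b₀, hb₀⟩ := exists_nf h2 B₀ hS₀ hB₀ hn₀ α hα c₀ δ hδ₀
  refine ⟨b.equiv b₀ (Equiv.refl _), ?_⟩
  have key : B₀.comp (b.equiv b₀ (Equiv.refl _)).toLinearMap (b.equiv b₀ (Equiv.refl _)).toLinearMap
      = B := by
    apply LinearMap.BilinForm.ext_basis b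
    intro i j
    rw [LinearMap.BilinForm.comp_apply]
    simp only [LinearEquiv.coe_coe, Basis.equiv_apply, Equiv.refl_apply]
    rw [hb, hb₀]
  intro x y
  rw [← key, LinearMap.BilinForm.comp_apply]
  rfl

theorem exists_simil {V V₀ : Type*} [AddCommGroup V] [Module F V] [FiniteDimensional F V]
    [AddCommGroup V₀] [Module F V₀] [FiniteDimensional F V₀] (h2 : (2 : F) ≠ 0)
    (B : LinearMap.BilinForm F V) (hS : B.IsSymm) (hB : B.Nondegenerate)
    (B₀ : LinearMap.BilinForm F V₀) (hS₀ : B₀.IsSymm) (hB₀ : B₀.Nondegenerate) {N : ℕ}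
    (hn : finrank F V = 2 * N + 1) (hn₀ : finrank F V₀ = 2 * N + 1) :
    ∃ (T : V ≃ₗ[F] V₀) (a : F), a ≠ 0 ∧ ∀ x y, B₀ (T x) (T y) = a * B x y := by
  classical
  let c := finBasis F V
  let c₀ := finBasis F V₀
  by_cases h : IsSquare (Matrix.of (fun i j => B (c i) (c j))).det ↔
      IsSquare (Matrix.of (fun i j => B₀ (c₀ i) (c₀ j))).det
  · obtain ⟨T, hT⟩ := exists_isom_of_sq h2 B hS hB B₀ hS₀ hB₀ hn hn₀ c c₀ h
    exact ⟨T, 1, one_ne_zero, fun x y => by rw [hT, one_mul]⟩
  · obtain ⟨α, hα⟩ := FiniteField.exists_nonsquare (F := F) (ringChar_ne_two_of_two_ne_zero h2)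
    have hα0 : α ≠ 0 := by rintro rfl; exact hα ⟨0, by simp⟩
    have hS' : (α • B).IsSymm := by
      constructor
      intro x y
      simp only [LinearMap.smul_apply, smul_eq_mul]
      rw [hS.eq]
    have hB' : (α • B).Nondegenerate := by
      apply nondeg_of_symm _ hS'
      intro x hx
      apply hB.1
      intro y
      have := hx y
      simp only [LinearMap.smul_apply, smul_eq_mul] at this
      exact (mul_eq_zero.mp this).resolve_left hα0
    have hdet0 := gram_det_ne_zero hB c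
    have hdet : (Matrix.of (fun i j => (α • B) (c i) (c j))).det
        = (α ^ N) ^ 2 * (α * (Matrix.of (fun i j => B (c i) (c j))).det) := by
      have h1 : Matrix.of (fun i j => (α • B) (c i) (c j)) = α • Matrix.of (fun i j => B (c i) (c j)) := by
        ext i j; simp
      have h3 : α ^ finrank F V = (α ^ N) ^ 2 * α := by rw [hn]; ring
      rw [h1, Matrix.det_smul, Fintype.card_fin, h3]
      ring
    have hsq : IsSquare (Matrix.of (fun i j => (α • B) (c i) (c j))).det ↔
        ¬ IsSquare (Matrix.of (fun i j => B (c i) (c j))).det := by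
      rw [hdet]
      have hαN : α ^ N ≠ 0 := pow_ne_zero _ hα0
      have e1 : IsSquare ((α ^ N) ^ 2 * (α * (Matrix.of (fun i j => B (c i) (c j))).det)) ↔
          IsSquare (α * (Matrix.of (fun i j => B (c i) (c j))).det) := by
        constructor
        · rintro ⟨x, hx⟩
          refine ⟨x / α ^ N, ?_⟩
          field_simp
          rw [← pow_two] at hx
          rw [← hx]; ring
        · rintro ⟨x, hx⟩
          exact ⟨α ^ N * x, by rw [hx]; ring⟩
      rw [e1]
      constructor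
      · intro h3 h4
        rw [mul_comm] at h3
        exact not_isSquare_mul_of_isSquare_of_not hdet0 h4 hα h3
      · intro h3
        exact isSquare_mul_of_not_isSquare hα h3
    obtain ⟨T, hT⟩ := exists_isom_of_sq h2 (α • B) hS' hB' B₀ hS₀ hB₀ hn hn₀ c c₀ (by
      rw [hsq]; tauto)
    exact ⟨T, α, hα0, fun x y => by rw [hT]; simp⟩

end Cfsg.Agent.Lib.Helper42.SpecO
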